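import Mathlib

/-! # Prime powers next to powers of two -/

set_option autoImplicit false

open Finset

namespace Cfsg.Agent.HalfTransP.Arith

lemma odd_dvd_two_pow {A j : ℕ} (hA : Odd A) (h : A ∣ 2 ^ j) : A = 1 :=
  Nat.Coprime.eq_one_of_dvd (Nat.Coprime.pow_right j (Nat.coprime_two_right.2 hA)) h

lemma sub_one {q d j : ℕ} (hq : q.Prime) (hodd : Odd q) (h : q ^ d = 2 ^ j + 1) :
    (d = 1 ∧ q = 2 ^ j + 1) ∨ (q = 3 ∧ d = 2) := by
  have hq3 : 3 ≤ q := by
    have := hq.two_le
    obtain ⟨k, rfl⟩ := hodd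
    omega
  rcases Nat.even_or_odd d with ⟨e, rfl⟩ | ⟨e, rfl⟩
  · have he : 1 ≤ e := by
      by_contra he
      have : e = 0 := by omega
      subst this
      have := Nat.two_pow_pos j
      simp at h
    set r := q ^ e with hr
    have hr3 : 3 ≤ r := hq3.trans (Nat.le_self_pow (by omega) q)
    have hmul : (r - 1) * (r + 1) = 2 ^ j := by
      have : q ^ (e + e) = r * r := pow_add q e e
      rw [this] at h
      obtain ⟨s, hs⟩ : ∃ s, r = s + 1 := ⟨r - 1, by omega⟩
      rw [hs] at h ⊢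
      rw [Nat.add_sub_cancel]
      nlinarith
    obtain ⟨u, -, hu⟩ := (Nat.dvd_prime_pow Nat.prime_two).1 (hmul ▸ dvd_mul_right (r - 1) (r + 1))
    obtain ⟨w, -, hw⟩ := (Nat.dvd_prime_pow Nat.prime_two).1 (hmul ▸ dvd_mul_left (r + 1) (r - 1))
    have hr' : r = 3 := by
      rcases u with _ | _ | u
      · simp at hu; omega
      · simp at hu; omega
      · rcases w with _ | _ | w
        · simp at hw; omega
        · simp at hw; omega
        · rw [pow_succ, pow_succ, mul_assoc] at hu hw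
          omega
    have he1 : e = 1 := by
      by_contra he1
      have : q * q ≤ r := by
        rw [hr, ← pow_two]; exact Nat.pow_le_pow_right (by omega) (by omega)
      nlinarith
    exact Or.inr ⟨by rw [he1, pow_one] at hr; omega, by omega⟩
  · left
    have hS : ∀ n : ℕ, ∃ S : ℕ, (Odd S ↔ Odd n) ∧ (q - 1) * S + 1 = q ^ n := by
      intro n
      induction n with
      | zero => exact ⟨0, by simp, by simp⟩
      | succ n ih =>
        obtain ⟨S, h1, h2⟩ := ih
        refine ⟨q * S + 1, ?_, ?_⟩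
        · rw [Nat.odd_add_one, Nat.odd_add_one, Nat.odd_mul, h1]; simp [hodd]
        · rw [pow_succ, ← h2]
          obtain ⟨s, hs⟩ : ∃ s, q = s + 1 := ⟨q - 1, by omega⟩
          rw [hs, Nat.add_sub_cancel]; ring
    obtain ⟨S, h1, h2⟩ := hS (2 * e + 1)
    have hS1 : S = 1 := odd_dvd_two_pow (h1.2 ⟨e, rfl⟩) (j := j) ⟨q - 1, by
      rw [h] at h2; rw [mul_comm]; omega⟩
    rw [hS1, mul_one] at h2
    have hq' : q = q ^ (2 * e + 1) := by omega
    have he : 2 * e + 1 = 1 := Nat.pow_right_injective hq.two_le (by simp only [pow_one]; exact hq'.symm)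
    rw [← hq'] at h
    exact ⟨he, h⟩

lemma add_one {q d m : ℕ} (hodd : Odd q) (hd : 1 ≤ d) (hq : 2 ≤ q) (h : q ^ d + 1 = 2 ^ m) :
    d = 1 := by
  rcases Nat.even_or_odd d with ⟨e, rfl⟩ | ⟨e, rfl⟩
  · exfalso
    obtain ⟨k, hk⟩ := hodd.pow (n := e)
    have hqe : 2 ≤ q ^ e := hq.trans (Nat.le_self_pow (by omega) q)
    rw [pow_add, hk] at h
    rcases m with _ | _ | m
    · simp at h
    · norm_num at h; nlinarith
    · rw [pow_succ, pow_succ] at h
      have : (2 * k + 1) * (2 * k + 1) = 4 * (k * k + k) + 1 := by ring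
      rw [this] at h
      omega
  · have hA : ∀ n : ℕ, ∃ A : ℤ, Odd A ∧ ((q : ℤ) + 1) * A = (q : ℤ) ^ (2 * n + 1) + 1 := by
      intro n
      induction n with
      | zero => exact ⟨1, by norm_num, by ring⟩
      | succ n ih =>
        obtain ⟨A, hA, h'⟩ := ih
        refine ⟨(q : ℤ) ^ 2 * A - ((q : ℤ) - 1), ?_, ?_⟩
        · have hq' : Odd (q : ℤ) := by exact_mod_cast hodd
          exact ((hq'.pow).mul hA).sub_even (hq'.sub_odd odd_one)
        · rw [mul_sub, ← mul_left_comm, h']; ring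
    obtain ⟨A, hAo, hA⟩ := hA e
    have hdvd : A ∣ (2 : ℤ) ^ m := ⟨(q : ℤ) + 1, by
      rw [mul_comm, hA]; exact_mod_cast h.symm⟩
    have hA1 : A.natAbs = 1 := odd_dvd_two_pow (j := m) (Int.natAbs_odd.2 hAo) (by
      have := Int.natAbs_dvd_natAbs.2 hdvd
      rwa [Int.natAbs_pow] at this)
    have hnat : (q + 1) * A.natAbs = q ^ (2 * e + 1) + 1 := by
      have := congrArg Int.natAbs hA
      rw [Int.natAbs_mul] at this
      have e1 : ((q : ℤ) + 1).natAbs = q + 1 := by norm_cast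
      have e2 : ((q : ℤ) ^ (2 * e + 1) + 1).natAbs = q ^ (2 * e + 1) + 1 := by norm_cast
      rwa [e1, e2] at this
    rw [hA1, mul_one] at hnat
    have hq' : q ^ (2 * e + 1) = q ^ 1 := by rw [pow_one]; omega
    exact Nat.pow_right_injective hq hq'

lemma card_eq_pow {A : Type*} [AddCommGroup A] [Finite A] {q : ℕ} (hq : q.Prime)
    (h : ∀ a : A, q • a = 0) : ∃ d : ℕ, Nat.card A = q ^ d := by
  haveI := Fact.mk hq
  refine ⟨_, Nat.eq_prime_pow_of_unique_prime_dvd Nat.card_pos.ne' fun {r} hr hrd => ?_⟩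
  haveI := Fact.mk hr
  obtain ⟨a, ha⟩ := exists_prime_addOrderOf_dvd_card' r hrd
  have := addOrderOf_dvd_of_nsmul_eq_zero (h a)
  rw [ha] at this
  exact (Nat.prime_dvd_prime_iff_eq hr hq).1 this

end Cfsg.Agent.HalfTransP.Arith
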