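import Mathlib

/-! # Half-transitive linear actions of p-groups: basic facts

`G` is a `p`-group acting by additive automorphisms on an elementary abelian `q`-group `V`, `q ≠ p`,
all stabilisers of nonzero vectors having the same order.
-/

set_option autoImplicit false

open MulAction Finset

namespace Cfsg.Agent.HalfTransP

variable {G V : Type*} [Group G] [AddCommGroup V] [DistribMulAction G V]

/-- The norm of a vector with respect to an element of exponent `n`. -/
def nrm (n : ℕ) (e : G) (v : V) : V := ∑ i ∈ range n, e ^ i • v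

lemma smul_nrm {n : ℕ} {e : G} (he : e ^ n = 1) (v : V) : e • nrm n e v = nrm n e v := by
  have h1 := sum_range_succ (fun i => e ^ i • v) n
  have h2 := sum_range_succ' (fun i => e ^ i • v) n
  simp only [he, pow_zero] at h1 h2
  rw [h1] at h2
  have := add_right_cancel h2
  unfold nrm
  conv_rhs => rw [this]
  rw [smul_sum]
  simp only [pow_succ', mul_smul]

lemma nrm_of_fixed {n : ℕ} {e : G} {v : V} (h : e • v = v) : nrm n e v = n • v := by
  have : ∀ i : ℕ, e ^ i • v = v := fun i => by
    induction i with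
    | zero => simp
    | succ i ih => rw [pow_succ, mul_smul, h, ih]
  simp [nrm, this]

lemma nrm_add (n : ℕ) (e : G) (u v : V) : nrm n e (u + v) = nrm n e u + nrm n e v := by
  simp [nrm, sum_add_distrib]

lemma stab_ne_bot_iff {v : V} : (∃ g : G, g ≠ 1 ∧ g • v = v) ↔ stabilizer G v ≠ ⊥ := by
  rw [Subgroup.ne_bot_iff_exists_ne_one]
  constructor
  · rintro ⟨g, h1, h2⟩
    exact ⟨⟨g, h2⟩, fun h => h1 (congrArg Subtype.val h)⟩
  · rintro ⟨⟨g, h2⟩, h1⟩
    exact ⟨g, fun h => h1 (Subtype.ext h), h2⟩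

/-- The hypotheses of the half-transitive situation that is not semiregular. -/
structure Data (p q : ℕ) (G V : Type*) [Group G] [AddCommGroup V] [DistribMulAction G V] : Prop where
  hG : IsPGroup p G
  hp : p.Prime
  hq : q.Prime
  hpq : p ≠ q
  hqV : ∀ v : V, q • v = 0
  hk : ∀ v w : V, v ≠ 0 → w ≠ 0 → Nat.card (stabilizer G v) = Nat.card (stabilizer G w)
  hns : ∃ g : G, g ≠ 1 ∧ ∃ v : V, v ≠ 0 ∧ g • v = v
  hfaith : ∀ g : G, (∀ v : V, g • v = v) → g = 1

variable {p q : ℕ} [Finite G] [Finite V]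

namespace Data

set_option linter.unusedSectionVars false

variable (D : Data p q G V)
include D

lemma smul_cancel {n : ℕ} (hn : ¬ q ∣ n) {v : V} (h : n • v = 0) : v = 0 := by
  have h1 : addOrderOf v ∣ Nat.gcd n q :=
    Nat.dvd_gcd (addOrderOf_dvd_of_nsmul_eq_zero h) (addOrderOf_dvd_of_nsmul_eq_zero (D.hqV v))
  have h2 : Nat.gcd n q = 1 := Nat.Coprime.symm ((Nat.Prime.coprime_iff_not_dvd D.hq).2 hn)
  rw [h2, Nat.dvd_one] at h1
  exact AddMonoid.addOrderOf_eq_one_iff.1 h1

lemma not_dvd_p : ¬ q ∣ p := fun h =>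
  D.hpq ((Nat.prime_dvd_prime_iff_eq D.hq D.hp).1 h).symm

lemma p_smul_cancel {v : V} (h : p • v = 0) : v = 0 := D.smul_cancel D.not_dvd_p h

lemma one_lt_stab {v : V} (hv : v ≠ 0) : 1 < Nat.card (stabilizer G v) := by
  obtain ⟨g, hg, w, hw, hgw⟩ := D.hns
  rw [D.hk v w hv hw]
  exact (Subgroup.one_lt_card_iff_ne_bot _).2 (stab_ne_bot_iff.1 ⟨g, hg, hgw⟩)

lemma eq_of_le {v w : V} (hv : v ≠ 0) (hw : w ≠ 0) (h : stabilizer G v ≤ stabilizer G w) :
    stabilizer G v = stabilizer G w :=
  Subgroup.eq_of_le_of_card_ge h (D.hk w v hw hv).le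

lemma exists_prime_pow {g : G} (hg : g ≠ 1) : ∃ n : ℕ, (g ^ n) ≠ 1 ∧ (g ^ n) ^ p = 1 := by
  haveI := Fact.mk D.hp
  obtain ⟨k, hk⟩ := IsPGroup.iff_orderOf.1 D.hG g
  rcases k with _ | k
  · exact absurd (orderOf_eq_one_iff.1 (by simpa using hk)) hg
  · refine ⟨p ^ k, fun h => ?_, ?_⟩
    · have := orderOf_dvd_of_pow_eq_one h
      rw [hk] at this
      have := Nat.le_of_dvd (pow_pos D.hp.pos k) this
      have := Nat.pow_lt_pow_right D.hp.one_lt (show k < k + 1 by omega)
      omega
    · rw [← pow_mul, ← pow_succ, ← hk, pow_orderOf_eq_one]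

/-- A vector with trivial norm and a fixed vector cannot coexist for a central element. -/
lemma central_fpf {z : G} (hzc : ∀ g : G, g * z = z * g) (hz : z ≠ 1) {v : V} (hv : z • v = v) :
    v = 0 := by
  by_contra hv0
  obtain ⟨n, hy1, hyp⟩ := D.exists_prime_pow hz
  set y := z ^ n with hy
  have hyc : ∀ g : G, g * y = y * g := fun g => (Commute.pow_right (hzc g) n : Commute g y)
  have hyv : y • v = v := (Subgroup.pow_mem (stabilizer G v) (show z ∈ stabilizer G v from hv) n :)
  -- fixed vectors and vectors of trivial norm are invariant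
  have hinv1 : ∀ (g : G) (w : V), y • w = w → y • (g • w) = g • w := fun g w hw => by
    rw [← mul_smul, ← hyc, mul_smul, hw]
  have hinv2 : ∀ (g : G) (u : V), nrm p y u = 0 → nrm p y (g • u) = 0 := fun g u hu => by
    have : nrm p y (g • u) = g • nrm p y u := by
      unfold nrm
      rw [smul_sum]
      refine sum_congr rfl fun i _ => ?_
      rw [← mul_smul, ← mul_smul, show y ^ i * g = g * y ^ i from
        ((Commute.pow_right (hyc g) i : Commute g (y ^ i))).eq.symm]
    rw [this, hu, smul_zero]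
  obtain ⟨x, hx⟩ : ∃ x : V, y • x ≠ x := by
    by_contra h
    push Not at h
    exact hy1 (D.hfaith y h)
  have hdec : ∀ w : V, ∃ f u : V, p • w = f + u ∧ y • f = f ∧ nrm p y u = 0 := fun w => by
    refine ⟨nrm p y w, p • w - nrm p y w, by abel, smul_nrm hyp w, ?_⟩
    have h1 : nrm p y (p • w) = p • nrm p y w := by
      unfold nrm; rw [smul_sum]; exact sum_congr rfl fun i _ => smul_comm _ _ _
    have h2 : nrm p y (nrm p y w) = p • nrm p y w := nrm_of_fixed (smul_nrm hyp w)
    have h3 := nrm_add p y (p • w - nrm p y w) (nrm p y w)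
    rw [sub_add_cancel, h1, h2] at h3
    exact add_right_cancel (b := p • nrm p y w) (by rw [zero_add]; exact h3.symm)
  have hsum : ∀ f u : V, y • f = f → nrm p y u = 0 → f ≠ 0 → u ≠ 0 →
      stabilizer G f = stabilizer G u := by
    intro f u hf hu hf0 hu0
    have hle : ∀ g : G, g • (f + u) = f + u → g • f = f ∧ g • u = u := by
      intro g hg
      rw [smul_add] at hg
      have hN := congrArg (nrm p y) hg
      rw [nrm_add, nrm_add, nrm_of_fixed (hinv1 g f hf), nrm_of_fixed hf, hu, hinv2 g u hu,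
        add_zero, add_zero] at hN
      have hgf : g • f = f := by
        have : p • (g • f - f) = 0 := by rw [nsmul_sub, hN, sub_self]
        exact sub_eq_zero.1 (D.p_smul_cancel this)
      exact ⟨hgf, by rw [hgf] at hg; exact add_left_cancel hg⟩
    have hne : f + u ≠ 0 := fun h => hf0 (D.p_smul_cancel (by
      have := congrArg (nrm p y) h
      rw [nrm_add, nrm_of_fixed hf, hu, add_zero] at this
      simpa [nrm] using this))
    have h1 := D.eq_of_le hne hf0 fun g hg => (hle g hg).1
    have h2 := D.eq_of_le hne hu0 fun g hg => (hle g hg).2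
    rw [← h1, h2]
  obtain ⟨f, u, hfu, hf, hu⟩ := hdec x
  have hu0 : u ≠ 0 := by
    rintro rfl
    rw [add_zero] at hfu
    refine hx (sub_eq_zero.1 (D.p_smul_cancel ?_))
    rw [nsmul_sub, ← smul_comm, hfu, hf, sub_self]
  -- so one common stabiliser fixes everything
  set K := stabilizer G v with hK
  have hKall : ∀ g ∈ K, ∀ w : V, g • w = w := by
    intro g hg w
    obtain ⟨f', u', h', hf', hu'⟩ := hdec w
    have e1 : g • f' = f' := by
      rcases eq_or_ne f' 0 with rfl | h0
      · exact smul_zero g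
      · have := hsum f' u hf' hu h0 hu0
        rw [← hsum v u hyv hu hv0 hu0] at this
        exact (this.symm ▸ hg : g ∈ stabilizer G f')
    have e2 : g • u' = u' := by
      rcases eq_or_ne u' 0 with rfl | h0
      · exact smul_zero g
      · exact (hsum v u' hyv hu' hv0 h0 ▸ hg : g ∈ stabilizer G u')
    refine sub_eq_zero.1 (D.p_smul_cancel ?_)
    rw [nsmul_sub, ← smul_comm g, h', smul_add, e1, e2, sub_self]
  have := D.one_lt_stab hv0
  have hb : stabilizer G v = ⊥ :=
    (Subgroup.eq_bot_iff_forall _).2 fun g hg => D.hfaith g (hKall g hg)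
  rw [hb] at this
  simp at this

lemma nrm_central {e : G} (hec : ∀ g : G, g * e = e * g) (he1 : e ≠ 1) (hep : e ^ p = 1) (v : V) :
    nrm p e v = 0 :=
  D.central_fpf hec he1 (smul_nrm hep v)

/-- A central involution acts as `-1`. -/
lemma central_neg {e : G} (hec : ∀ g : G, g * e = e * g) (he1 : e ≠ 1) (he2 : e ^ 2 = 1) (v : V) :
    e • v = - v := by
  refine eq_neg_of_add_eq_zero_left (D.central_fpf hec he1 ?_)
  rw [smul_add, ← mul_smul, ← pow_two, he2, one_smul, add_comm]

end Data

end Cfsg.Agent.HalfTransP
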