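import Cfsg.Agent.HalfTransP.Transitive
import Cfsg.Agent.HalfTransP.Arith

/-! # Half-transitive 2-groups with a cyclic subgroup of index two -/

set_option autoImplicit false
set_option linter.unusedSectionVars false
set_option linter.style.haveILetI false

open MulAction Finset

namespace Cfsg.Agent.HalfTransP

variable {G V : Type*} [Group G] [AddCommGroup V] [DistribMulAction G V] {q : ℕ}
  [Finite G] [Finite V]

lemma card_fix_mul_neg (D : Data 2 q G V) {t : G} (ht : t * t = 1) :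
    Nat.card V = Nat.card (fixA (V := V) t) * Nat.card (negA (V := V) t) := by
  have haa : ∀ v : V, t • (t • v) = v := fun v => by rw [← mul_smul, ht, one_smul]
  have tc : ∀ v : V, v + v = 0 → v = 0 := fun v h => D.p_smul_cancel (by rwa [two_nsmul])
  rw [← Nat.card_prod]
  refine le_antisymm (Nat.card_le_card_of_injective
    (fun v => (⟨v + t • v, by rw [mem_fixA, smul_add, haa, add_comm]⟩,
      ⟨v - t • v, by rw [mem_negA, smul_sub, haa, neg_sub]⟩)) fun v w h => ?_)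
    (Nat.card_le_card_of_injective (fun xy => (xy.1 : V) + xy.2) fun xy xy' h => ?_)
  · simp only [Prod.mk.injEq, Subtype.mk.injEq] at h
    refine sub_eq_zero.1 (tc _ ?_)
    calc v - w + (v - w) = (v + t • v + (v - t • v)) - (w + t • w + (w - t • w)) := by abel
      _ = 0 := by rw [h.1, h.2, sub_self]
  · obtain ⟨⟨x, hx⟩, ⟨y, hy⟩⟩ := xy
    obtain ⟨⟨x', hx'⟩, ⟨y', hy'⟩⟩ := xy'
    rw [mem_fixA] at hx hx'; rw [mem_negA] at hy hy'
    have h' := congrArg (t • ·) h
    simp only [smul_add, hx, hx', hy, hy'] at h h'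
    have hxx : x = x' := sub_eq_zero.1 (tc _ (by
      calc x - x' + (x - x') = (x + y + (x + -y)) - (x' + y' + (x' + -y')) := by abel
        _ = 0 := by rw [h, h', sub_self]))
    subst hxx
    simp only [Prod.mk.injEq, Subtype.mk.injEq]
    exact ⟨trivial, add_left_cancel h⟩

lemma Data.maxClass (D : Data 2 q G V) (hV : Nontrivial V) (c : G) {n : ℕ} (hn : 1 ≤ n)
    (hc : orderOf c = 2 ^ n) (hG : Nat.card G = 2 ^ (n + 1))
    (hconj : ∀ t : G, t * t = 1 → t ∉ Subgroup.zpowers c →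
      ∃ g : G, g * t * g⁻¹ = t * c ^ 2 ^ (n - 1))
    {m : ℕ} (hT : Nat.card {t : G // t * t = 1 ∧ t ∉ Subgroup.zpowers c} = 2 ^ m) :
    Nat.card V = q ^ 2 ∧ q = 2 ^ m - 1 := by
  classical
  set C := Subgroup.zpowers c with hC
  set z := c ^ 2 ^ (n - 1) with hz
  have hCcard : Nat.card C = 2 ^ n := by rw [Nat.card_zpowers, hc]
  have hCidx : C.index = 2 := by
    have := C.card_mul_index
    rw [hCcard, hG, pow_succ] at this
    exact Nat.eq_of_mul_eq_mul_left (pow_pos two_pos n) this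
  have hCn : C.Normal := Subgroup.normal_of_index_eq_two hCidx
  have hp : 2 ^ (n - 1) * 2 = 2 ^ n := by rw [← pow_succ, Nat.sub_add_cancel hn]
  have hz1 : z ≠ 1 := by
    rw [hz, Ne, ← orderOf_dvd_iff_pow_eq_one, hc]
    intro h
    have := Nat.le_of_dvd (pow_pos two_pos _) h
    have := pow_pos two_pos (n - 1) (M₀ := ℕ)
    omega
  have hzz : z * z = 1 := by
    rw [hz, ← pow_two, ← pow_mul, hp, ← hc, pow_orderOf_eq_one]
  have hzC : z ∈ C := Subgroup.pow_mem _ (Subgroup.mem_zpowers c) _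
  have huniq : ∀ u ∈ C, u * u = 1 → u ≠ 1 → u = z := by
    intro u hu huu hu1
    obtain ⟨i, rfl⟩ := (isOfFinOrder_of_finite c).mem_powers_iff_mem_zpowers.2 hu
    simp only at huu hu1 ⊢
    rw [← pow_add, ← orderOf_dvd_iff_pow_eq_one, hc, ← hp, ← two_mul, mul_comm 2 i] at huu
    obtain ⟨k, hk⟩ := Nat.dvd_of_mul_dvd_mul_right two_pos huu
    rcases Nat.even_or_odd k with ⟨j, rfl⟩ | ⟨j, rfl⟩
    · exact absurd (by rw [hk, pow_mul, ← hz, ← two_mul, pow_mul, pow_two, hzz, one_pow]) hu1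
    · rw [hk, pow_mul, ← hz, pow_succ, pow_mul, pow_two, hzz, one_pow, one_mul]
  have hzc : ∀ g : G, g * z = z * g := fun g => by
    refine mul_inv_eq_iff_eq_mul.1 (huniq _ (hCn.conj_mem z hzC g) ?_ ?_)
    · rw [conj_mul, hzz, mul_one, mul_inv_cancel]
    · exact fun h => hz1 (conj_eq_one_iff.1 h)
  have hsemi : ∀ u ∈ C, ∀ v : V, v ≠ 0 → u • v = v → u = 1 := by
    intro u hu v hv huv
    by_contra hu1
    obtain ⟨k, hk1, hk2⟩ := D.exists_prime_pow hu1
    have e := huniq _ (C.pow_mem hu k) (by rw [← pow_two]; exact hk2) hk1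
    have : (u ^ k) • v = v :=
      Subgroup.pow_mem (stabilizer G v) (show u ∈ stabilizer G v from huv) k
    rw [e] at this
    exact hv (D.central_fpf hzc hz1 this)
  have hstab : ∀ v : V, v ≠ 0 → ∀ t : G, t • v = v → t ≠ 1 → t * t = 1 ∧ t ∉ C := by
    intro v hv t ht ht1
    have htC : t ∉ C := fun h => ht1 (hsemi t h v hv ht)
    exact ⟨hsemi _ ((Subgroup.mul_mem_iff_of_index_two hCidx).2 Iff.rfl) v hv
      (by rw [mul_smul, ht, ht]), htC⟩
  let T := {t : G // t * t = 1 ∧ t ∉ C}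
  -- the fixed spaces
  have hneg : ∀ t : T, Nat.card (negA (V := V) (t : G)) = Nat.card (fixA (V := V) (t : G)) := by
    intro t
    obtain ⟨g, hg⟩ := hconj t t.2.1 t.2.2
    have e : ∀ v : V, ((t : G) * z) • v = -((t : G) • v) := fun v => by
      rw [mul_smul, D.central_neg hzc hz1 (by rw [pow_two, hzz]), smul_neg]
    refine Nat.card_congr (Equiv.subtypeEquiv (MulAction.toPerm g⁻¹) fun v => ?_)
    simp only [MulAction.toPerm_apply, mem_negA, mem_fixA]
    have h1 : (t : G) • (g⁻¹ • v) = g⁻¹ • -((t : G) • v) := by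
      rw [← e, ← hg, ← mul_smul, ← mul_smul]; group
    rw [h1, (MulAction.injective g⁻¹).eq_iff, neg_eq_iff_eq_neg]
  obtain ⟨d, hd⟩ : ∃ d, ∀ t : T, Nat.card (fixA (V := V) (t : G)) = q ^ d := by
    by_cases hT0 : Nonempty T
    · obtain ⟨t0⟩ := hT0
      obtain ⟨d, hd⟩ := Arith.card_eq_pow D.hq (A := fixA (V := V) (t0 : G))
        fun x => Subtype.ext (D.hqV x)
      refine ⟨d, fun t => ?_⟩
      have h1 := card_fix_mul_neg D t.2.1
      have h2 := card_fix_mul_neg D t0.2.1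
      rw [hneg t] at h1
      rw [hneg t0, h1, hd] at h2
      exact Nat.mul_self_inj.1 h2
    · exact ⟨0, fun t => absurd ⟨t⟩ hT0⟩
  have hTpos : Nonempty T := by
    have : Nat.card T ≠ 0 := by rw [hT]; exact (pow_pos two_pos m).ne'
    exact (Nat.card_ne_zero.1 this).1
  obtain ⟨t0⟩ := hTpos
  have hVQ : Nat.card V = q ^ d * q ^ d := by
    rw [card_fix_mul_neg D t0.2.1, hneg t0, hd t0]
  have hcount : Nat.card {v : V // v ≠ 0} = Nat.card T * (q ^ d - 1) := by
    haveI := Fintype.ofFinite T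
    let f : (Σ t : T, {v : fixA (V := V) (t : G) // v ≠ 0}) → {v : V // v ≠ 0} :=
      fun x => ⟨(x.2 : fixA (V := V) (x.1 : G)), fun h => x.2.2 (Subtype.ext h)⟩
    have hf : Function.Bijective f := by
      constructor
      · rintro ⟨t, ⟨v, hv⟩, hv0⟩ ⟨t', ⟨v', hv'⟩, hv0'⟩ h
        have hvv : v = v' := congrArg Subtype.val h
        subst hvv
        have htt : t = t' := by
          refine Subtype.ext ?_
          have hv0'' : v ≠ 0 := fun e => hv0 (Subtype.ext e)
          have hmem : (t : G) * t' ∈ C := (Subgroup.mul_mem_iff_of_index_two hCidx).2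
            (iff_of_false t.2.2 t'.2.2)
          have := hsemi _ hmem v hv0'' (by rw [mul_smul, mem_fixA.1 hv', mem_fixA.1 hv])
          exact (eq_inv_of_mul_eq_one_left this).trans (inv_eq_of_mul_eq_one_right t'.2.1)
        subst htt
        rfl
      · rintro ⟨v, hv⟩
        obtain ⟨⟨t, ht⟩, ht1⟩ := (Subgroup.ne_bot_iff_exists_ne_one).1
          ((Subgroup.one_lt_card_iff_ne_bot _).1 (D.one_lt_stab hv))
        exact ⟨⟨⟨t, hstab v hv t ht fun h => ht1 (Subtype.ext h)⟩, ⟨v, ht⟩,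
          fun h => hv (congrArg Subtype.val h)⟩, rfl⟩
    rw [← Nat.card_eq_of_bijective f hf, Nat.card_sigma]
    have : ∀ t : T, Nat.card {v : fixA (V := V) (t : G) // v ≠ 0} = q ^ d - 1 := fun t => by
      have h := Set.ncard_compl ({0} : Set (fixA (V := V) (t : G)))
      rw [Set.ncard_singleton, hd t] at h
      rw [← h, ← Nat.card_coe_set_eq]
      rfl
    simp only [this, Finset.sum_const, Finset.card_univ, smul_eq_mul, Nat.card_eq_fintype_card]
  have hV0 : Nat.card {v : V // v ≠ 0} = q ^ d * q ^ d - 1 := by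
    rw [← hVQ]
    have h := Set.ncard_compl ({0} : Set V)
    rw [Set.ncard_singleton] at h
    rw [← h, ← Nat.card_coe_set_eq]; rfl
  have hd1 : 1 ≤ d := by
    by_contra h
    have : d = 0 := by omega
    subst this
    have := Finite.one_lt_card (α := V)
    simp at hVQ; omega
  have hQ1 : 2 ≤ q ^ d := D.hq.two_le.trans (Nat.le_self_pow (by omega) q)
  rw [hV0, hT] at hcount
  have hTQ : q ^ d + 1 = 2 ^ m := by
    obtain ⟨s, hs⟩ : ∃ s, q ^ d = s + 1 := ⟨q ^ d - 1, by omega⟩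
    rw [hs, Nat.add_sub_cancel] at hcount
    have : (s + 1) * (s + 1) - 1 = (s + 2) * s := by
      have : (s + 1) * (s + 1) = (s + 2) * s + 1 := by ring
      omega
    rw [this] at hcount
    have := Nat.eq_of_mul_eq_mul_right (by omega) hcount
    omega
  have := Arith.add_one (D.hq.odd_of_ne_two fun h => D.hpq h.symm) hd1 D.hq.two_le hTQ
  subst this
  rw [pow_one] at hTQ hVQ
  exact ⟨by rw [hVQ, pow_two], by omega⟩

lemma Data.dihedral (D : Data 2 q G V) (hV : Nontrivial V) {M : ℕ} (hM : 8 ≤ M)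
    (e : G ≃* DihedralGroup M) :
    Nat.card V = q ^ 2 ∧ ∃ m : ℕ, M = 2 ^ m ∧ q = 2 ^ m - 1 := by
  haveI : NeZero M := ⟨by omega⟩
  haveI : Fact (Nat.Prime 2) := ⟨Nat.prime_two⟩
  obtain ⟨k, hk⟩ := IsPGroup.iff_card.1 D.hG
  rw [Nat.card_congr e.toEquiv, DihedralGroup.nat_card] at hk
  obtain ⟨n, -, rfl⟩ := (Nat.dvd_prime_pow Nat.prime_two).1 (⟨2, by rw [← hk, mul_comm]⟩ : M ∣ 2 ^ k)
  have hn : 3 ≤ n := by
    by_contra h
    have := Nat.pow_le_pow_right two_pos (show n ≤ 2 by omega)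
    omega
  set c := e.symm (DihedralGroup.r 1) with hc
  have hcn : ∀ i : ℕ, c ^ i = e.symm (DihedralGroup.r (i : ZMod (2 ^ n))) := fun i => by
    rw [hc, ← map_pow, DihedralGroup.r_one_pow]
  have hmem : ∀ g : G, g ∈ Subgroup.zpowers c ↔ ∃ i : ZMod (2 ^ n), g = e.symm (DihedralGroup.r i) := by
    intro g
    constructor
    · intro hg
      obtain ⟨i, rfl⟩ := (isOfFinOrder_of_finite c).mem_powers_iff_mem_zpowers.2 hg
      exact ⟨i, hcn i⟩
    · rintro ⟨i, rfl⟩
      rw [← ZMod.natCast_zmod_val i, ← hcn]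
      exact Subgroup.pow_mem _ (Subgroup.mem_zpowers c) _
  have hout : ∀ g : G, g ∉ Subgroup.zpowers c ↔ ∃ i : ZMod (2 ^ n), g = e.symm (DihedralGroup.sr i) := by
    intro g
    rw [hmem]
    rcases hg : e g with i | i
    · have : g = e.symm (DihedralGroup.r i) := by rw [← hg, MulEquiv.symm_apply_apply]
      refine iff_of_false (fun h => h ⟨i, this⟩) ?_
      rintro ⟨j, hj⟩
      rw [hj, MulEquiv.apply_symm_apply] at hg
      simp at hg
    · have : g = e.symm (DihedralGroup.sr i) := by rw [← hg, MulEquiv.symm_apply_apply]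
      refine iff_of_true ?_ ⟨i, this⟩
      rintro ⟨j, hj⟩
      rw [hj, MulEquiv.apply_symm_apply] at hg
      simp at hg
  have h := D.maxClass hV c (n := n) (by omega)
    (by rw [hc, MulEquiv.orderOf_eq, DihedralGroup.orderOf_r_one])
    (by rw [Nat.card_congr e.toEquiv, DihedralGroup.nat_card, pow_succ, mul_comm])
    (fun t _ htC => by
      obtain ⟨i, rfl⟩ := (hout t).1 htC
      refine ⟨e.symm (DihedralGroup.r (-((2 ^ (n - 2) : ℕ) : ZMod (2 ^ n)))), ?_⟩
      rw [hcn, ← map_inv, ← map_mul, ← map_mul, ← map_mul, DihedralGroup.inv_r,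
        DihedralGroup.r_mul_sr, DihedralGroup.sr_mul_r, DihedralGroup.sr_mul_r]
      congr 2
      have : (2 ^ (n - 2) + 2 ^ (n - 2) : ℕ) = 2 ^ (n - 1) := by
        rw [← two_mul, mul_comm, ← pow_succ, show n - 2 + 1 = n - 1 by omega]
      rw [← this, Nat.cast_add]; ring)
    (m := n) (by
      have he : Nat.card (ZMod (2 ^ n)) = 2 ^ n := Nat.card_zmod _
      refine Eq.trans (Nat.card_eq_of_bijective
        (fun i : ZMod (2 ^ n) => (⟨e.symm (DihedralGroup.sr i), by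
          rw [← map_mul, DihedralGroup.sr_mul_sr, sub_self]; exact map_one e.symm,
          (hout _).2 ⟨i, rfl⟩⟩ : {t : G // t * t = 1 ∧ t ∉ Subgroup.zpowers c}))
        ⟨fun i j h => ?_, fun t => ?_⟩).symm he
      · simpa using congrArg Subtype.val h
      · obtain ⟨i, hi⟩ := (hout t).1 t.2.2
        exact ⟨i, Subtype.ext hi.symm⟩)
  exact ⟨h.1, n, rfl, h.2⟩

lemma Data.quasiDihedral (D : Data 2 q G V) (hV : Nontrivial V) {n : ℕ} (hn : 3 ≤ n)
    (hG : Nat.card G = 2 ^ (n + 1)) {x y : G} (hx : orderOf x = 2 ^ n) (hy : orderOf y = 2)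
    (hxy : y * x * y⁻¹ = x ^ (2 ^ (n - 1) - 1)) :
    Nat.card V = q ^ 2 ∧ q = 2 ^ (n - 1) - 1 := by
  set C := Subgroup.zpowers x with hC
  set r := 2 ^ (n - 1) - 1 with hr
  have h4 : 4 ≤ 2 ^ (n - 1) := le_trans (by norm_num) (Nat.pow_le_pow_right two_pos (show 2 ≤ n - 1 by omega))
  have hp : 2 ^ (n - 1) * 2 = 2 ^ n := by rw [← pow_succ, Nat.sub_add_cancel (by omega)]
  have hyy : y * y = 1 := by rw [← pow_two, ← hy, pow_orderOf_eq_one]
  have hyC : y ∉ C := by
    intro hyC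
    obtain ⟨i, hi⟩ := Subgroup.mem_zpowers_iff.1 hyC
    have : x ^ r = x ^ 1 := by
      rw [← hxy, pow_one, ← hi, ← zpow_add_one, ← zpow_neg, ← zpow_add]
      simp
    have h' := pow_inj_mod.1 this
    rw [hx, Nat.mod_eq_of_lt (by omega), Nat.mod_eq_of_lt (by omega)] at h'
    omega
  have hidx : C.index = 2 := by
    have := C.card_mul_index
    rw [Nat.card_zpowers, hx, hG, pow_succ] at this
    exact Nat.eq_of_mul_eq_mul_left (pow_pos two_pos n) this
  have hyx : ∀ k : ℕ, y * x ^ k = x ^ (r * k) * y := fun k => by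
    rw [pow_mul, ← hxy, conj_pow, inv_mul_cancel_right]
  have hsq : ∀ i : ℕ, x ^ i * y * (x ^ i * y) = 1 ↔ Even i := fun i => by
    rw [show x ^ i * y * (x ^ i * y) = x ^ i * (y * x ^ i) * y by group, hyx, mul_assoc, mul_assoc,
      hyy, mul_one, ← pow_add, ← orderOf_dvd_iff_pow_eq_one, hx]
    have : i + r * i = 2 ^ (n - 1) * i := by
      calc i + r * i = (r + 1) * i := by ring
        _ = _ := by rw [hr, Nat.sub_add_cancel (by omega)]
    rw [this, ← hp, Nat.mul_dvd_mul_iff_left (pow_pos two_pos _), even_iff_two_dvd]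
  have hout : ∀ t : G, t ∉ C → ∃ i < 2 ^ n, t = x ^ i * y := fun t ht => by
    obtain ⟨i, hi, e⟩ : ∃ i < 2 ^ n, x ^ i = t * y := by
      have hm : t * y ∈ C := (Subgroup.mul_mem_iff_of_index_two hidx).2 (iff_of_false ht hyC)
      obtain ⟨i, hi⟩ := (isOfFinOrder_of_finite x).mem_powers_iff_mem_zpowers.2 hm
      exact ⟨i % 2 ^ n, Nat.mod_lt _ (pow_pos two_pos n), by
        rw [← hx, pow_mod_orderOf]; exact hi⟩
    exact ⟨i, hi, by rw [e, mul_assoc, hyy, mul_one]⟩
  have hxC : ∀ i : ℕ, x ^ i * y ∉ C := fun i h =>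
    hyC (by simpa using C.mul_mem (C.inv_mem (C.pow_mem (Subgroup.mem_zpowers x) i)) h)
  refine D.maxClass hV x (n := n) (by omega) hx hG (fun t htt htC => ?_) (m := n - 1) ?_
  · obtain ⟨i, -, rfl⟩ := hout t htC
    refine ⟨x ^ 2 ^ (n - 2), ?_⟩
    rw [mul_inv_eq_iff_eq_mul]
    have hk : 2 ^ (n - 2) + 2 ^ (n - 2) = 2 ^ (n - 1) := by
      rw [← two_mul, mul_comm, ← pow_succ, show n - 2 + 1 = n - 1 by omega]
    obtain ⟨u, hu⟩ : ∃ u, 2 ^ (n - 3) = u := ⟨_, rfl⟩
    have e2 : 2 ^ (n - 2) = 2 * u := by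
      rw [← hu, mul_comm, ← pow_succ, show n - 3 + 1 = n - 2 by omega]
    have e1 : 2 ^ (n - 1) = 4 * u := by omega
    have e0 : 2 ^ n = 8 * u := by omega
    have hu1 : 1 ≤ u := by omega
    have hmod : (2 ^ (n - 2) + i) % 2 ^ n = (i + r * (2 ^ (n - 1) + 2 ^ (n - 2))) % 2 ^ n := by
      rw [hr, e0, e1, e2]
      obtain ⟨w, rfl⟩ : ∃ w, u = w + 1 := ⟨u - 1, by omega⟩
      rw [show 4 * (w + 1) - 1 = 4 * w + 3 by omega, ← Nat.add_mul_mod_self_left
        (2 * (w + 1) + i) (8 * (w + 1)) (3 * (w + 1)), ← Nat.add_mul_mod_self_left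
        (i + (4 * w + 3) * (4 * (w + 1) + 2 * (w + 1))) (8 * (w + 1)) 1]
      congr 1
      ring
    have hz : x ^ i * y * x ^ 2 ^ (n - 1) * x ^ 2 ^ (n - 2) =
        x ^ (i + r * (2 ^ (n - 1) + 2 ^ (n - 2))) * y := by
      calc x ^ i * y * x ^ 2 ^ (n - 1) * x ^ 2 ^ (n - 2)
          = x ^ i * (y * x ^ (2 ^ (n - 1) + 2 ^ (n - 2))) := by rw [pow_add]; group
        _ = _ := by rw [hyx, ← mul_assoc, ← pow_add]
    rw [hz, ← mul_assoc, ← pow_add]
    congr 1
    rw [pow_inj_mod, hx]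
    exact hmod
  · have he : Nat.card (Fin (2 ^ (n - 1))) = 2 ^ (n - 1) := Nat.card_fin _
    refine Eq.trans (Nat.card_eq_of_bijective
      (fun j : Fin (2 ^ (n - 1)) => (⟨x ^ (2 * (j : ℕ)) * y, (hsq _).2 (even_two_mul _), hxC _⟩ :
        {t : G // t * t = 1 ∧ t ∉ C})) ⟨fun i j h => ?_, fun t => ?_⟩).symm he
    · have h' := pow_inj_mod.1 (mul_right_cancel (congrArg Subtype.val h))
      rw [hx, Nat.mod_eq_of_lt (by omega), Nat.mod_eq_of_lt (by omega)] at h'
      exact Fin.ext (by omega)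
    · obtain ⟨i, hi, e⟩ := hout t t.2.2
      have hev := (hsq i).1 (e ▸ t.2.1)
      obtain ⟨j, rfl⟩ := hev
      exact ⟨⟨j, by omega⟩, Subtype.ext (by simp only; rw [e, two_mul])⟩

end Cfsg.Agent.HalfTransP
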