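import Cfsg.Agent.HalfTransP.Transitive
import Cfsg.Agent.HalfTransP.Arith

/-! # Two blocks: the monomial groups -/

set_option autoImplicit false
set_option linter.unusedSectionVars false
set_option linter.style.haveILetI false

open MulAction Finset

namespace Cfsg.Agent.HalfTransP

variable {G V : Type*} [Group G] [AddCommGroup V] [DistribMulAction G V] {q : ℕ}
  [Finite G] [Finite V] {a z g0 : G}

namespace Frame

variable (F : Frame 2 G V a z g0) (D : Data 2 q G V)
include F D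

lemma q_odd : Odd q :=
  D.hq.odd_of_ne_two fun h => D.hpq h.symm

lemma smul_pm {x : V} (hx : a • x = x) (g : G) :
    a • (g • x) = g • x ∨ a • (g • x) = -(g • x) := by
  by_cases h : g * a = a * g
  · exact Or.inl (by rw [F.a_comm D h, hx])
  · exact Or.inr (by rw [F.a_swap D h, hx])

lemma card_minus : Nat.card (negA (V := V) a) = Nat.card (fixA (V := V) a) := by
  refine le_antisymm (Nat.card_le_card_of_injective
    (fun y => ⟨g0 • (y : V), F.g0_minus D y.2⟩) fun y y' h => ?_)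
    (Nat.card_le_card_of_injective (fun x => ⟨g0 • (x : V), F.g0_plus D x.2⟩) fun x x' h => ?_)
  · exact Subtype.ext (MulAction.injective g0 (congrArg Subtype.val h))
  · exact Subtype.ext (MulAction.injective g0 (congrArg Subtype.val h))

lemma card_V : Nat.card V = Nat.card (fixA (V := V) a) ^ 2 := by
  have haa : ∀ v : V, a • (a • v) = v := fun v => by rw [← mul_smul, ← pow_two, F.hap, one_smul]
  rw [pow_two]
  nth_rewrite 2 [← F.card_minus D]
  rw [← Nat.card_prod]
  refine le_antisymm (Nat.card_le_card_of_injective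
    (fun v => (⟨v + a • v, by rw [mem_fixA, smul_add, haa, add_comm]⟩,
      ⟨v - a • v, by rw [mem_negA, smul_sub, haa, neg_sub]⟩)) fun v w h => ?_)
    (Nat.card_le_card_of_injective (fun xy => (xy.1 : V) + xy.2) fun xy xy' h => ?_)
  · simp only [Prod.mk.injEq, Subtype.mk.injEq] at h
    refine sub_eq_zero.1 (F.two_cancel D ?_)
    calc v - w + (v - w) = (v + a • v + (v - a • v)) - (w + a • w + (w - a • w)) := by abel
      _ = 0 := by rw [h.1, h.2, sub_self]
  · obtain ⟨⟨x, hx⟩, ⟨y, hy⟩⟩ := xy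
    obtain ⟨⟨x', hx'⟩, ⟨y', hy'⟩⟩ := xy'
    rw [mem_fixA] at hx hx'; rw [mem_negA] at hy hy'
    have h' := congrArg (a • ·) h
    simp only [smul_add, hx, hx', hy, hy'] at h h'
    have hxx : x = x' := sub_eq_zero.1 (F.two_cancel D (by
      calc x - x' + (x - x') = (x + y + (x + -y)) - (x' + y' + (x' + -y')) := by abel
        _ = 0 := by rw [h, h', sub_self]))
    subst hxx
    simp only [Prod.mk.injEq, Subtype.mk.injEq]
    exact ⟨trivial, add_left_cancel h⟩

lemma orbit_split {x : V} (hx : a • x = x) (hx0 : x ≠ 0) :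
    (orbit G x).ncard = 2 * {w ∈ orbit G x | a • w = -w}.ncard ∧
      (orbit G x).ncard * 2 = Nat.card G := by
  constructor
  · have hU : orbit G x = {w ∈ orbit G x | a • w = w} ∪ {w ∈ orbit G x | a • w = -w} := by
      ext w
      constructor
      · rintro hw
        obtain ⟨g, rfl⟩ := id hw
        rcases F.smul_pm D hx g with h | h
        · exact Or.inl ⟨hw, h⟩
        · exact Or.inr ⟨hw, h⟩
      · rintro (h | h) <;> exact h.1
    have hd : Disjoint {w ∈ orbit G x | a • w = w} {w ∈ orbit G x | a • w = -w} := by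
      rw [Set.disjoint_left]
      rintro w ⟨⟨g, rfl⟩, h1⟩ ⟨-, h2⟩
      rw [show a • ((fun m : G => m • x) g) = (fun m : G => m • x) g from h1] at h2
      have := F.eq_neg_self D h2
      exact hx0 (by simpa using congrArg (g⁻¹ • ·) this)
    nth_rewrite 1 [hU]
    rw [Set.ncard_union_eq hd]
    have : {w ∈ orbit G x | a • w = w}.ncard = {w ∈ orbit G x | a • w = -w}.ncard := by
      refine le_antisymm ?_ ?_
      · exact Set.ncard_le_ncard_of_injOn (g0 • ·)
          (fun w hw => ⟨mem_orbit_of_mem_orbit g0 hw.1, F.g0_plus D hw.2⟩)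
          ((MulAction.injective g0).injOn) (Set.toFinite _)
      · exact Set.ncard_le_ncard_of_injOn (g0 • ·)
          (fun w hw => ⟨mem_orbit_of_mem_orbit g0 hw.1, F.g0_minus D hw.2⟩)
          ((MulAction.injective g0).injOn) (Set.toFinite _)
    omega
  · rw [← F.card_stab D hx0, ← index_stabilizer, mul_comm, Subgroup.card_mul_index]

/-- Either everything is swapped, or stabiliser elements fix vectors of the other block. -/
lemma cases_AB :
    (∀ x : V, a • x = x → x ≠ 0 → ∀ t : G, t • x = x → t ≠ 1 → ∀ y : V, a • y = -y → y ≠ 0 →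
      t • y ≠ y) ∨
    (∀ x : V, a • x = x → x ≠ 0 → ∀ t : G, t • x = x → t ≠ 1 →
      ∃ y : V, a • y = -y ∧ y ≠ 0 ∧ t • y = y) := by
  by_cases hA : ∃ s : G, s ≠ 1 ∧ ∀ y : V, a • y = -y → s • y = y
  · obtain ⟨s, hs1, hs⟩ := hA
    obtain ⟨-, hsneg⟩ := F.trivial_minus D hs1 hs
    left
    intro x hx hx0 t ht ht1 y hy hy0 hty
    have e : g0 * s * g0⁻¹ = t := by
      refine (F.stab_pair D hx hx0 ht ht1).2 _ ?_ fun e => hs1 (conj_eq_one_iff.1 e)
      rw [mul_smul, mul_smul, hs _ (F.g0inv_plus D hx), smul_inv_smul]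
    rw [← e, mul_smul, mul_smul, hsneg _ (F.g0inv_minus D hy), smul_neg, smul_inv_smul] at hty
    exact hy0 (F.eq_neg_self D hty.symm)
  · right
    push Not at hA
    intro x hx hx0 t ht ht1
    by_contra hno
    push Not at hno
    have htH := F.plus_or_minus_H D hx0 (Or.inl hx) ht
    have ht2 := (F.stab_pair D hx hx0 ht ht1).1
    have hneg : ∀ y : V, a • y = -y → t • y = -y := fun y hy => by
      refine eq_neg_of_add_eq_zero_left ?_
      by_contra hne
      refine hno _ ?_ hne ?_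
      · rw [smul_add, F.a_comm D htH, hy, smul_neg, neg_add]
      · rw [smul_add, ← mul_smul, ← pow_two, ht2, one_smul, add_comm]
    have hc : ∀ h : G, h * a = a * h → h * t = t * h := fun h hh => by
      by_contra hne
      obtain ⟨y, hy, hy'⟩ := hA (t⁻¹ * (h * t * h⁻¹)) fun e => hne
        (mul_inv_eq_iff_eq_mul.1 (inv_mul_eq_one.1 e).symm)
      refine hy' ?_
      have hy2 : a • (h⁻¹ • y) = -(h⁻¹ • y) := by rw [F.a_comm D (F.inv_H D hh), hy, smul_neg]
      rw [mul_smul, mul_smul, mul_smul, hneg _ hy2, smul_neg, smul_inv_smul, inv_smul_eq_iff,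
        hneg y hy]
    have hz := F.central_of_commH D htH hc
    set t' := g0 * t * g0⁻¹ with ht'
    have hplus : ∀ w : V, a • w = w → t' • w = -w := fun w hw => by
      rw [ht', mul_smul, mul_smul, hneg _ (F.g0inv_plus D hw), smul_neg, smul_inv_smul]
    have hfix : ∀ w : V, a • w = w → t • w = w := by
      intro w hw
      refine (sub_eq_zero.1 ?_).symm
      by_contra hne
      have e1 : a • (w - t • w) = w - t • w := by rw [smul_sub, F.a_comm D htH, hw]
      have e2 : (t * t') • (w - t • w) = w - t • w := by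
        rw [mul_smul, hplus _ e1, smul_neg, smul_sub, ← mul_smul, ← pow_two, ht2, one_smul, neg_sub]
      by_cases hz1 : t * t' = 1
      · have h1 := congrArg (· • x) hz1
        simp only [mul_smul, hplus x hx, smul_neg, ht, one_smul] at h1
        exact hx0 (F.eq_neg_self D h1.symm)
      · exact hne (D.central_fpf hz hz1 e2)
    obtain ⟨y, hy, hy'⟩ := hA t' fun e => ht1 (conj_eq_one_iff.1 (ht' ▸ e))
    refine hy' ?_
    rw [ht', mul_smul, mul_smul, hfix _ (F.g0inv_minus D hy), smul_inv_smul]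

lemma transitive {x : V} (hx : a • x = x) (hx0 : x ≠ 0) {y : V} (hy : a • y = -y) (hy0 : y ≠ 0) :
    ∃ g : G, g • x = y := by
  obtain ⟨⟨t, ht⟩, ht1'⟩ := (Subgroup.ne_bot_iff_exists_ne_one).1
    ((Subgroup.one_lt_card_iff_ne_bot _).1 (D.one_lt_stab hx0))
  have ht1 : t ≠ 1 := fun h => ht1' (Subtype.ext h)
  by_contra hno
  push Not at hno
  obtain ⟨w0, hw0, hw0'⟩ := F.exists_moved D hx hx0 ht ht1
  set M : Set V := {w | a • w = -w ∧ t • w ≠ w} with hM
  set Fx : Set V := {w | a • w = -w ∧ t • w = w} with hFx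
  have h0F : (0 : V) ∈ Fx := ⟨by simp, smul_zero t⟩
  have hMO : M ⊆ {w ∈ orbit G x | a • w = -w} := fun w hw => by
    obtain ⟨g, hg, -⟩ := F.swap D hx hx0 hw.1 (fun e => hw.2 (by rw [e, smul_zero])) ht ht1 hw.2
    exact ⟨⟨g, hg⟩, hw.1⟩
  set x' := g0⁻¹ • y with hx'
  have hx'p : a • x' = x' := F.g0inv_minus D hy
  have hx'0 : x' ≠ 0 := fun h => hy0 (by simpa [hx'] using congrArg (g0 • ·) h)
  have hO'F : {w ∈ orbit G x' | a • w = -w} ⊆ Fx \ {0} := by
    rintro w ⟨⟨g, hg⟩, hwm⟩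
    have hg' : g • x' = w := hg
    have hw0 : w ≠ 0 := fun h => hx'0 (by
      rw [h] at hg'; simpa using congrArg (g⁻¹ • ·) hg')
    refine ⟨⟨hwm, ?_⟩, hw0⟩
    by_contra hne
    obtain ⟨⟨h, hh⟩, -⟩ := hMO ⟨hwm, hne⟩
    have hh' : h • x = w := hh
    refine hno (g0 * g⁻¹ * h) ?_
    rw [mul_smul, mul_smul, hh', ← hg', inv_smul_smul, hx', smul_inv_smul]
  have h1 := F.orbit_split D hx hx0
  have h2 := F.orbit_split D hx'p hx'0
  have h3 : Fx.ncard ≤ M.ncard :=
    Set.ncard_le_ncard_of_injOn (· + w0) (fun f hf => ⟨by rw [smul_add, hf.1, hw0, neg_add],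
      fun e => hw0' (by rw [smul_add, hf.2] at e; exact add_left_cancel e)⟩)
      (add_left_injective w0).injOn (Set.toFinite _)
  have h4 := Set.ncard_le_ncard hMO (Set.toFinite _)
  have h5 := Set.ncard_le_ncard hO'F (Set.toFinite _)
  have h6 := Set.ncard_sdiff_singleton_of_mem h0F
  have h7 : 0 < Fx.ncard := (Set.ncard_pos (Set.toFinite _)).2 ⟨0, h0F⟩
  omega

lemma card_G : Nat.card G = 4 * (Nat.card (fixA (V := V) a) - 1) := by
  obtain ⟨x, hx0, hx⟩ := F.hv
  obtain ⟨h1, h2⟩ := F.orbit_split D hx hx0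
  have h3 : {w ∈ orbit G x | a • w = -w} = (negA (V := V) a : Set V) \ {0} := by
    ext w
    constructor
    · rintro ⟨⟨g, rfl⟩, hw⟩
      exact ⟨hw, fun h => hx0 (by simpa using congrArg (g⁻¹ • ·) (Set.mem_singleton_iff.1 h))⟩
    · rintro ⟨hw, hw0⟩
      obtain ⟨g, hg⟩ := F.transitive D hx hx0 hw hw0
      exact ⟨⟨g, hg⟩, hw⟩
  rw [h3, Set.ncard_sdiff_singleton_of_mem (by simp)] at h1
  have e : (negA (V := V) a : Set V).ncard = Nat.card (negA (V := V) a) :=
    (Nat.card_coe_set_eq _).symm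
  rw [e, F.card_minus D] at h1
  omega

lemma sizes : (Nat.card V = 81 ∧ q = 3) ∨
    (Nat.card (fixA (V := V) a) = q ∧ ∃ j : ℕ, q = 2 ^ j + 1) := by
  haveI : Fact (Nat.Prime 2) := ⟨Nat.prime_two⟩
  obtain ⟨d, hd⟩ := Arith.card_eq_pow D.hq (A := fixA (V := V) a) fun x => Subtype.ext (D.hqV x)
  obtain ⟨n, hn⟩ := IsPGroup.iff_card.1 D.hG
  have hG4 := F.card_G D
  rw [hn, hd] at hG4
  obtain ⟨j, -, hj⟩ := (Nat.dvd_prime_pow Nat.prime_two).1 (hG4 ▸ dvd_mul_left (q ^ d - 1) 4)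
  have hqd : q ^ d = 2 ^ j + 1 := by
    have := Nat.two_pow_pos j
    omega
  rcases Arith.sub_one D.hq (F.q_odd D) hqd with ⟨hd1, hq'⟩ | ⟨hq3, hd2⟩
  · exact Or.inr ⟨by rw [hd, hd1, pow_one], j, hq'⟩
  · left
    rw [F.card_V D, hd, hq3, hd2]
    exact ⟨by norm_num, rfl⟩

/-- In the case of two lines everything is swapped. -/
lemma swap_all (hQ : Nat.card (fixA (V := V) a) = q) {x : V} (hx : a • x = x) (hx0 : x ≠ 0)
    {t : G} (ht : t • x = x) (ht1 : t ≠ 1) {y : V} (hy : a • y = -y) (hy0 : y ≠ 0) :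
    (∃ g : G, g • x = y ∧ g • y = x) ∧ t • y = -y := by
  have htH := F.plus_or_minus_H D hx0 (Or.inl hx) ht
  have ht2 := (F.stab_pair D hx hx0 ht ht1).1
  have hall : ∀ w : V, a • w = -w → w ≠ 0 → t • w ≠ w := by
    rcases F.cases_AB D with hA | hB
    · exact fun w hw hw0 => hA x hx hx0 t ht ht1 w hw hw0
    · exfalso
      obtain ⟨y1, hy1, hy10, hy1f⟩ := hB x hx hx0 t ht ht1
      obtain ⟨y2, hy2, hy2m⟩ := F.exists_moved D hx hx0 ht ht1
      let S : AddSubgroup (negA (V := V) a) :=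
        { carrier := {w | t • (w : V) = w}
          zero_mem' := smul_zero t
          add_mem' := fun {u w} hu hw => by
            simp only [Set.mem_ofPred_eq, AddSubgroup.coe_add] at *; rw [smul_add, hu, hw]
          neg_mem' := fun {u} hu => by
            simp only [Set.mem_ofPred_eq, AddSubgroup.coe_neg] at *; rw [smul_neg, hu] }
      have hdvd := S.card_addSubgroup_dvd_card
      rw [F.card_minus D, hQ] at hdvd
      rcases (Nat.dvd_prime D.hq).1 hdvd with h | h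
      · have : (⟨y1, hy1⟩ : negA (V := V) a) ∈ (⊥ : AddSubgroup _) :=
          (AddSubgroup.card_eq_one.1 h) ▸ (show (⟨y1, hy1⟩ : negA (V := V) a) ∈ S from hy1f)
        exact hy10 (congrArg Subtype.val (AddSubgroup.mem_bot.1 this))
      · have hS : S = ⊤ := AddSubgroup.eq_top_of_card_eq S (by rw [h, F.card_minus D, hQ])
        exact hy2m (show (⟨y2, hy2⟩ : negA (V := V) a) ∈ S by rw [hS]; trivial)
  refine ⟨F.swap D hx hx0 hy hy0 ht ht1 (hall y hy hy0), eq_neg_of_add_eq_zero_left ?_⟩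
  by_contra hne
  exact hall _ (by rw [smul_add, F.a_comm D htH, hy, smul_neg, neg_add]) hne
    (by rw [smul_add, ← mul_smul, ← pow_two, ht2, one_smul, add_comm])

/-- The monomial normal form. -/
lemma monomial (hQ : Nat.card (fixA (V := V) a) = q) :
    Nat.card V = q ^ 2 ∧ ∃ x y : V, ∃ s t : G, a • x = x ∧ x ≠ 0 ∧ a • y = -y ∧ y ≠ 0 ∧
      s • x = y ∧ s • y = x ∧ t • x = x ∧ t • y = -y ∧
      (∀ g : G, g • x = x → g = 1 ∨ g = t) ∧
      (∀ g : G, ∃ n : ℕ, ¬ q ∣ n ∧ (g • x = n • x ∨ g • x = n • y)) ∧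
      (∀ n : ℕ, ¬ q ∣ n → ∃ h : G, h • x = n • x ∧ n • (h • y) = y) := by
  obtain ⟨x, hx0, hx⟩ := F.hv
  obtain ⟨y, hy0, hy⟩ := F.exists_minus D
  obtain ⟨⟨t, ht⟩, ht1'⟩ := (Subgroup.ne_bot_iff_exists_ne_one).1
    ((Subgroup.one_lt_card_iff_ne_bot _).1 (D.one_lt_stab hx0))
  have ht1 : t ≠ 1 := fun h => ht1' (Subtype.ext h)
  obtain ⟨⟨s, hs, hs'⟩, hty⟩ := F.swap_all D hQ hx hx0 ht ht1 hy hy0
  have hmult : ∀ (A : AddSubgroup V), Nat.card A = q → ∀ u ∈ A, u ≠ 0 → ∀ w ∈ A,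
      ∃ n : ℕ, w = n • u := by
    intro A hA u hu hu0 w hw
    have ho : addOrderOf u = q :=
      ((Nat.dvd_prime D.hq).1 (addOrderOf_dvd_of_nsmul_eq_zero (D.hqV u))).resolve_left
        fun h => hu0 (AddMonoid.addOrderOf_eq_one_iff.1 h)
    have hle : AddSubgroup.zmultiples u ≤ A := AddSubgroup.zmultiples_le_of_mem hu
    have heq : AddSubgroup.zmultiples u = A :=
      AddSubgroup.eq_of_le_of_card_ge hle (by rw [hA, Nat.card_zmultiples, ho])
    obtain ⟨n, hn⟩ := (isOfFinAddOrder_of_finite u).mem_multiples_iff_mem_zmultiples.2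
      (heq ▸ hw : w ∈ AddSubgroup.zmultiples u)
    exact ⟨n, hn.symm⟩
  refine ⟨by rw [F.card_V D, hQ], x, y, s, t, hx, hx0, hy, hy0, hs, hs', ht, hty, fun g hg => ?_,
    fun g => ?_, fun n hn => ?_⟩
  · rcases eq_or_ne g 1 with h | h
    · exact Or.inl h
    · exact Or.inr ((F.stab_pair D hx hx0 ht ht1).2 g hg h)
  · have hgx : g • x ≠ 0 := fun h => hx0 (by simpa using congrArg (g⁻¹ • ·) h)
    rcases F.smul_pm D hx g with h | h
    · obtain ⟨n, hn⟩ := hmult _ hQ x hx hx0 _ h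
      refine ⟨n, fun ⟨c, hc⟩ => hgx ?_, Or.inl hn⟩
      rw [hn, hc, mul_comm, mul_nsmul', D.hqV x, nsmul_zero]
    · obtain ⟨n, hn⟩ := hmult _ (F.card_minus D ▸ hQ) y hy hy0 _ h
      refine ⟨n, fun ⟨c, hc⟩ => hgx ?_, Or.inr hn⟩
      rw [hn, hc, mul_comm, mul_nsmul', D.hqV y, nsmul_zero]
  · obtain ⟨⟨g, hg, hg'⟩, -⟩ := F.swap_all D hQ hx hx0 ht ht1 (y := n • y)
      (by rw [smul_comm, hy, neg_nsmul]) fun h => hy0 (D.smul_cancel hn h)
    refine ⟨s * g, by rw [mul_smul, hg, smul_comm, hs'], ?_⟩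
    rw [← smul_comm, mul_smul, hg', hs]

end Frame

end Cfsg.Agent.HalfTransP
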