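import Cfsg.Prelude.Def_CaseTheorems
import Cfsg.Agent.Frobenius.Complement
import Cfsg.Agent.HalfTransP.Monomial
import Cfsg.Agent.HalfTransP.MaxClass
import Cfsg.Agent.TwoGroup.NormalRankOne
import Cfsg.Agent.PGroup.UniqueOrderP
import Cfsg.Agent.S0519

/-! # Half-transitive linear p-groups -/

set_option autoImplicit false
set_option linter.unusedSectionVars false
set_option linter.style.haveILetI false

open MulAction Finset

namespace Cfsg.Agent.HalfTransP

variable {G V : Type*} [Group G] [AddCommGroup V] [DistribMulAction G V] {p q : ℕ}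
  [Finite G] [Finite V]

/-- The action as a representation over the prime field. -/
def toRep (q : ℕ) [Module (ZMod q) V] : Representation (ZMod q) G V where
  toFun g := (DistribSMul.toAddMonoidHom V g).toZModLinearMap q
  map_one' := by ext v; simp
  map_mul' g g' := by ext v; simp [mul_smul]

lemma semiregular_case [Fact q.Prime] [Module (ZMod q) V] [Nontrivial V] [Fact p.Prime]
    (hG : IsPGroup p G) (hs : ∀ v : V, v ≠ 0 → ∀ g : G, g • v = v → g = 1) :
    IsCyclic G ∨ ∃ n : ℕ, Nonempty (G ≃* QuaternionGroup n) := by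
  have hρ : ∀ g : G, g ≠ 1 → ∀ v : V, toRep (V := V) q g v = v → v = 0 := fun g hg v hv => by
    by_contra hv0
    exact hg (hs v hv0 g hv)
  have hT : IsPGroup p (⊤ : Subgroup G) := hG.to_subgroup ⊤
  by_cases hp : p = 2
  · subst hp
    rcases CfsgLib.Frobenius.Linear.cyclic_or_quaternion hρ (⊤ : Subgroup G) hT with h | ⟨m, -, ⟨e⟩⟩
    · exact Or.inl ((Subgroup.topEquiv (G := G)).isCyclic.1 h)
    · exact Or.inr ⟨2 ^ m, ⟨Subgroup.topEquiv.symm.trans e⟩⟩
  · exact Or.inl ((Subgroup.topEquiv (G := G)).isCyclic.1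
      (CfsgLib.Frobenius.Linear.isCyclic_odd_pSubgroup hρ hp (⊤ : Subgroup G) hT))

lemma Data.classify (D : Data p q G V) [Fact q.Prime] [Module (ZMod q) V] [Nontrivial V] :
    (Nat.card V = q ^ 2 ∧ ∃ m : ℕ, q = 2 ^ m - 1 ∧
      (Nonempty (G ≃* DihedralGroup (2 ^ m)) ∨
        (Cfsg.IsQuasiDihedral G ∧ Nat.card G = 2 ^ (m + 2)))) ∨
    (Nat.card V = q ^ 2 ∧ p = 2 ∧ (∃ m : ℕ, q = 2 ^ m + 1) ∧
      ∃ x y : V, ∃ a s t : G, a • x = x ∧ x ≠ 0 ∧ a • y = -y ∧ y ≠ 0 ∧
      s • x = y ∧ s • y = x ∧ t • x = x ∧ t • y = -y ∧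
      (∀ g : G, g • x = x → g = 1 ∨ g = t) ∧
      (∀ g : G, ∃ n : ℕ, ¬ q ∣ n ∧ (g • x = n • x ∨ g • x = n • y)) ∧
      (∀ n : ℕ, ¬ q ∣ n → ∃ h : G, h • x = n • x ∧ n • (h • y) = y)) ∨
    (Nat.card V = 81 ∧ q = 3 ∧ p = 2) := by
  haveI := Fact.mk D.hp
  by_cases hA : ∀ A : Subgroup G, A.Normal → IsMulCommutative A → IsCyclic A
  · left
    obtain ⟨g, hg, v, hv0, hgv⟩ := D.hns
    obtain ⟨k, hk1, hkp⟩ := D.exists_prime_pow hg
    set t := g ^ k with ht
    have htv : t • v = v := Subgroup.pow_mem (stabilizer G v) (show g ∈ stabilizer G v from hgv) k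
    haveI : Nontrivial G := ⟨⟨g, 1, hg⟩⟩
    haveI := D.hG.center_nontrivial
    obtain ⟨⟨c, hc⟩, hc1⟩ := exists_ne (1 : Subgroup.center G)
    obtain ⟨m, hz1, hzp⟩ := D.exists_prime_pow (g := c) (fun h => hc1 (Subtype.ext h))
    set z := c ^ m with hz
    clear_value z t
    have hzc : ∀ g : G, g * z = z * g := fun g => by
      rw [hz]; exact (Commute.pow_right (Subgroup.mem_center_iff.1 hc g : Commute g c) m).eq
    have htz : t ∉ Subgroup.zpowers z := fun h => by
      obtain ⟨i, hi⟩ := Subgroup.mem_zpowers_iff.1 h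
      refine hv0 (D.central_fpf (z := t) (fun g => ?_) hk1 htv)
      rw [← hi]; exact (Commute.zpow_right (hzc g) i : Commute g (z ^ i)).eq
    obtain ⟨hB1, hB2⟩ : (∀ B : Subgroup G, z ∈ B → t ∈ B → ¬ IsCyclic B) ∧
        ∃ B : Subgroup G, IsMulCommutative B ∧ z ∈ B ∧ t ∈ B := by
      refine ⟨fun B hzB htB hB => htz ?_, Subgroup.closure {z, t}, ?_,
        Subgroup.subset_closure (by simp), Subgroup.subset_closure (by simp)⟩
      · classical
        haveI : IsCyclic B := hB
        haveI := Fintype.ofFinite B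
        have hle := IsCyclic.card_pow_eq_one_le (α := B) D.hp.pos
        have hsub : ((Finset.univ : Finset B).filter fun u : B => (u : G) ∈ Subgroup.zpowers z) ⊆
            Finset.univ.filter fun u : B => u ^ p = 1 := by
          intro u hu
          simp only [Finset.mem_filter, Finset.mem_univ, true_and] at hu ⊢
          obtain ⟨i, hi⟩ := Subgroup.mem_zpowers_iff.1 hu
          refine Subtype.ext ?_
          rw [SubmonoidClass.coe_pow, ← hi, ← zpow_natCast, ← zpow_mul, mul_comm, zpow_mul,
            zpow_natCast, hzp, one_zpow]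
          rfl
        have hcard : ((Finset.univ : Finset B).filter fun u : B => (u : G) ∈ Subgroup.zpowers z).card =
            p := by
          rw [← orderOf_eq_prime hzp hz1, ← Nat.card_zpowers, ← Nat.card_eq_finsetCard]
          refine Nat.card_congr ⟨fun u => ⟨((u : B) : G), (Finset.mem_filter.1 u.2).2⟩,
            fun u => ⟨⟨u, Subgroup.zpowers_le.2 hzB u.2⟩, Finset.mem_filter.2 ⟨Finset.mem_univ _, u.2⟩⟩,
            fun u => rfl, fun u => rfl⟩
        have heq := Finset.eq_of_subset_of_card_le hsub (by rw [hcard]; exact hle)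
        have : (⟨t, htB⟩ : B) ∈ Finset.univ.filter fun u : B => u ^ p = 1 :=
          Finset.mem_filter.2 ⟨Finset.mem_univ _, Subtype.ext hkp⟩
        rw [← heq] at this
        exact (Finset.mem_filter.1 this).2
      · exact Subgroup.isMulCommutative_closure (by
          intro x hx y hy
          simp only [Set.mem_insert_iff, Set.mem_singleton_iff] at hx hy
          rcases hx with rfl | rfl <;> rcases hy with rfl | rfl
          · rfl
          · exact (hzc _).symm
          · exact hzc _
          · rfl)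
    obtain ⟨B, hB, hzB, htB⟩ := hB2
    obtain ⟨hp, hcases⟩ := Cfsg.Agent.S0519.result p D.hG hA ⟨B, hB, hB1 B hzB htB⟩
    subst hp
    rcases hcases with ⟨n, ⟨e⟩⟩ | ⟨n, hn, ⟨e⟩⟩ | hQD
    · exfalso
      haveI : NeZero n := ⟨fun h => by
        subst h
        haveI : Finite (QuaternionGroup 0) := Finite.of_equiv G e.toEquiv
        haveI : Finite ℤ := Finite.of_injective (fun i : ℤ => (QuaternionGroup.a i : QuaternionGroup 0))
          fun i j h => by injection h
        exact not_finite ℤ⟩
      have huniq : ∀ u : QuaternionGroup n, u ^ 2 = 1 → u ≠ 1 → u = QuaternionGroup.a n := by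
        intro u hu hu1
        rcases u with i | i
        · rw [pow_two, QuaternionGroup.a_mul_a, QuaternionGroup.one_def] at hu
          injection hu with hu
          rw [← ZMod.natCast_zmod_val i, ← Nat.cast_add, ZMod.natCast_eq_zero_iff] at hu
          obtain ⟨c, hc⟩ := hu
          have hlt := ZMod.val_lt i
          have hi0 : i.val ≠ 0 := fun h => hu1 (by
            rw [QuaternionGroup.one_def, ← ZMod.natCast_zmod_val i, h, Nat.cast_zero])
          have hin : i.val = n := by
            rcases c with _ | _ | c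
            · omega
            · omega
            · have : 2 * n * (c + 1 + 1) = 2 * n * c + 4 * n := by ring
              omega
          rw [← ZMod.natCast_zmod_val i, hin]
        · exact absurd (orderOf_dvd_of_pow_eq_one hu) (by rw [QuaternionGroup.orderOf_xa]; norm_num)
      exact htz (by
        rw [e.injective ((huniq (e t) (by rw [← map_pow, hkp, map_one])
          (fun h => hk1 (e.injective (h.trans (map_one e).symm)))).trans (huniq (e z)
          (by rw [← map_pow, hzp, map_one])
          (fun h => hz1 (e.injective (h.trans (map_one e).symm)))).symm)]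
        exact Subgroup.mem_zpowers z)
    · obtain ⟨h1, m, hm, hq⟩ := D.dihedral inferInstance hn e
      subst hm
      exact ⟨h1, m, hq, Or.inl ⟨e⟩⟩
    · obtain ⟨n, hn, hG, x, y, hx, hy, hxy⟩ := id hQD
      obtain ⟨h1, hq⟩ := D.quasiDihedral inferInstance hn hG hx hy hxy
      exact ⟨h1, n - 1, hq, Or.inr ⟨hQD, by rw [hG]; congr 1; omega⟩⟩
  · push Not at hA
    obtain ⟨A, hAn, hAc, hA⟩ := hA
    obtain ⟨a, z, g0, F⟩ := D.exists_frame inferInstance A hAc hA
    obtain rfl := F.eq_two D
    right
    rcases F.sizes D with h | ⟨hQ, hq⟩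
    · exact Or.inr ⟨h.1, h.2, rfl⟩
    · left
      obtain ⟨hV, x, y, s, t, h⟩ := F.monomial D hQ
      exact ⟨hV, rfl, hq, x, y, a, s, t, h⟩

end Cfsg.Agent.HalfTransP
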