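import Cfsg.Agent.HalfTransP.Basic
import Cfsg.Agent.Frobenius.Linear
import Cfsg.Agent.PGroup.Normal

/-! # Half-transitive p-groups with a noncyclic abelian normal subgroup: the frame -/

set_option autoImplicit false
set_option linter.unusedSectionVars false
set_option linter.style.haveILetI false

open MulAction Finset

namespace Cfsg.Agent.HalfTransP

variable {G V : Type*} [Group G] [AddCommGroup V] [DistribMulAction G V]

/-- An element `a` of order `p` whose conjugates are the `a * u`, `u` in a central subgroup of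
order `p`, fixing some nonzero vector. -/
structure Frame (p : ℕ) (G V : Type*) [Group G] [AddCommGroup V] [DistribMulAction G V]
    (a z g0 : G) : Prop where
  hzc : ∀ g : G, g * z = z * g
  hz1 : z ≠ 1
  hzp : z ^ p = 1
  hap : a ^ p = 1
  hconj : ∀ g : G, ∃ u ∈ Subgroup.zpowers z, g * a * g⁻¹ = a * u
  hg0 : g0 * a * g0⁻¹ = a * z
  hv : ∃ v : V, v ≠ 0 ∧ a • v = v

variable {p q : ℕ} [Finite G] [Finite V]

lemma Data.exists_frame (D : Data p q G V) (hV : Nontrivial V) [Fact q.Prime] [Module (ZMod q) V]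
    (A : Subgroup G) [A.Normal] (hAc : IsMulCommutative A) (hA : ¬ IsCyclic A) :
    ∃ a z g0 : G, Frame p G V a z g0 := by
  classical
  haveI := Fact.mk D.hp
  -- some element of order `p` of `A` fixes a vector
  obtain ⟨x, hxA, hx1, v, hv0, hxv⟩ : ∃ x ∈ A, x ≠ 1 ∧ ∃ v : V, v ≠ 0 ∧ x • v = v := by
    by_contra h
    push Not at h
    let ρ : Representation (ZMod q) A V :=
      { toFun := fun g => ((DistribSMul.toAddMonoidHom V (g : G)).toZModLinearMap q)
        map_one' := by ext v; simp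
        map_mul' := fun g g' => by ext v; simp [mul_smul] }
    refine hA (CfsgLib.Frobenius.Linear.isCyclic_of_comm (ρ := ρ) ?_ ?_)
    · intro g hg v hgv
      by_contra hv
      exact h g g.2 (fun e => hg (Subtype.ext e)) v hv hgv
    · exact fun a b => hAc.is_comm.comm a b
  obtain ⟨n, hn1, hnp⟩ := D.exists_prime_pow hx1
  set a0 := x ^ n with ha0
  have ha0v : a0 • v = v :=
    Subgroup.pow_mem (stabilizer G v) (show x ∈ stabilizer G v from hxv) n
  -- a central element of order `p`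
  haveI : Nontrivial G := ⟨⟨x, 1, hx1⟩⟩
  haveI := D.hG.center_nontrivial
  obtain ⟨⟨c, hc⟩, hc1⟩ := exists_ne (1 : Subgroup.center G)
  obtain ⟨m, hz1, hzp⟩ := D.exists_prime_pow (g := c) (fun h => hc1 (Subtype.ext h))
  set z := c ^ m with hz
  have hzc : ∀ g : G, g * z = z * g := fun g =>
    (Commute.pow_right (Subgroup.mem_center_iff.1 hc g : Commute g c) m)
  have hzC : Subgroup.zpowers z ≤ Subgroup.center G :=
    Subgroup.zpowers_le.2 (Subgroup.mem_center_iff.2 hzc)
  clear_value z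
  have hzo : orderOf z = p := orderOf_eq_prime hzp hz1
  have hzcard : Nat.card (Subgroup.zpowers z) = p := by rw [Nat.card_zpowers, hzo]
  have hfpf : ∀ u ∈ Subgroup.zpowers z, u ≠ 1 → ∀ w : V, u • w = w → w = 0 := fun u hu h1 w hw =>
    D.central_fpf (fun g => Subgroup.mem_center_iff.1 (hzC hu) g) h1 hw
  have hzN : (Subgroup.zpowers z).Normal :=
    ⟨fun u hu g => by rwa [Subgroup.mem_center_iff.1 (hzC hu) g, mul_inv_cancel_right]⟩
  -- the elements of order `p` of `A`
  let Ω : Subgroup G :=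
    { carrier := {g | g ∈ A ∧ g ^ p = 1}
      one_mem' := ⟨A.one_mem, one_pow p⟩
      mul_mem' := fun {g h} hg hh => ⟨A.mul_mem hg.1 hh.1, by
        rw [(show Commute g h from congrArg Subtype.val (hAc.is_comm.comm ⟨g, hg.1⟩ ⟨h, hh.1⟩)).mul_pow,
          hg.2, hh.2, one_mul]⟩
      inv_mem' := fun {g} hg => ⟨A.inv_mem hg.1, by rw [inv_pow, hg.2, inv_one]⟩ }
  have hΩn : Ω.Normal := ⟨fun g hg b => ⟨‹A.Normal›.conj_mem g hg.1 b, by
    rw [conj_pow, hg.2, mul_one, mul_inv_cancel]⟩⟩
  have hne : Ω.map (QuotientGroup.mk' (Subgroup.zpowers z)) ≠ ⊥ := by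
    intro h
    have : (a0 : G ⧸ Subgroup.zpowers z) = 1 := by
      rw [← Subgroup.mem_bot, ← h]
      exact ⟨a0, ⟨A.pow_mem hxA n, hnp⟩, rfl⟩
    exact hv0 (hfpf a0 ((QuotientGroup.eq_one_iff a0).1 this) hn1 v ha0v)
  haveI : (Ω.map (QuotientGroup.mk' (Subgroup.zpowers z))).Normal :=
    hΩn.map _ (QuotientGroup.mk'_surjective _)
  have hmeet := CfsgLib.PGroup.inf_center_ne_bot (D.hG.to_quotient (Subgroup.zpowers z))
    (Ω.map (QuotientGroup.mk' (Subgroup.zpowers z))) hne
  obtain ⟨⟨abar, hab⟩, hab1⟩ := (Subgroup.ne_bot_iff_exists_ne_one).1 hmeet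
  obtain ⟨⟨a, ⟨haA, hap⟩, hae⟩, habc⟩ := Subgroup.mem_inf.1 hab
  have haZ : a ∉ Subgroup.zpowers z := fun h => hab1 (Subtype.ext (by
    show abar = 1
    rw [← hae]; exact (QuotientGroup.eq_one_iff a).2 h))
  have hconj : ∀ g : G, ∃ u ∈ Subgroup.zpowers z, g * a * g⁻¹ = a * u := fun g => by
    refine ⟨a⁻¹ * (g * a * g⁻¹), (QuotientGroup.eq_one_iff _).1 ?_, by group⟩
    have := Subgroup.mem_center_iff.1 habc (QuotientGroup.mk' _ g)
    rw [← hae] at this
    simp only [QuotientGroup.mk'_apply] at this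
    simp only [QuotientGroup.mk_mul, QuotientGroup.mk_inv]
    rw [this, mul_inv_cancel_right, inv_mul_cancel]
  -- some `a * z ^ i` fixes a vector
  obtain ⟨i, w, hw0, hw⟩ : ∃ (i : ℕ) (w : V), w ≠ 0 ∧ (a * z ^ i) • w = w := by
    by_contra h
    push Not at h
    have hN : ∀ i : ℕ, nrm p (a * z ^ i) v = 0 := fun i => by
      by_contra h0
      refine h i _ h0 (smul_nrm ?_ v)
      rw [((Commute.pow_right (hzc a) i : Commute a (z ^ i))).mul_pow, hap, ← pow_mul, mul_comm,
        pow_mul, hzp, one_pow, one_mul]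
    have hsum : ∑ i ∈ range p, nrm p (a * z ^ i) v = p • v := by
      unfold nrm
      rw [sum_comm]
      rw [sum_eq_single 0]
      · simp
      · intro j hj hj0
        have hj' : z ^ j ≠ 1 := by
          rw [Ne, ← orderOf_dvd_iff_pow_eq_one, hzo]
          exact fun hd => hj0 (Nat.eq_zero_of_dvd_of_lt hd (mem_range.1 hj))
        have : ∀ i, (a * z ^ i) ^ j • v = (z ^ j) ^ i • (a ^ j • v) := fun i => by
          rw [((Commute.pow_right (hzc a) i : Commute a (z ^ i))).mul_pow, ← mul_smul,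
            ← pow_mul, ← pow_mul, mul_comm i j]
          exact congrArg (· • v) ((Commute.pow_pow (hzc a) j (j * i))).eq
        simp only [this]
        exact D.nrm_central (fun g => (Commute.pow_right (hzc g) j : Commute g (z ^ j))) hj'
          (by rw [← pow_mul, mul_comm, pow_mul, hzp, one_pow]) _
      · intro h0; exact absurd (mem_range.2 D.hp.pos) h0
    simp only [hN, sum_const_zero] at hsum
    exact hv0 (D.p_smul_cancel hsum.symm)
  set a' := a * z ^ i with ha'
  have hzi : z ^ i ∈ Subgroup.zpowers z := Subgroup.pow_mem _ (Subgroup.mem_zpowers z) i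
  have hconj' : ∀ g : G, ∃ u ∈ Subgroup.zpowers z, g * a' * g⁻¹ = a' * u := fun g => by
    obtain ⟨u, hu, e⟩ := hconj g
    refine ⟨u, hu, ?_⟩
    have h1 := Subgroup.mem_center_iff.1 (hzC hzi) g
    have h2 := Subgroup.mem_center_iff.1 (hzC hzi) u
    calc g * (a * z ^ i) * g⁻¹ = g * a * g⁻¹ * (g * z ^ i * g⁻¹) := by group
      _ = a * u * z ^ i := by rw [e, h1, mul_inv_cancel_right]
      _ = a * z ^ i * u := by rw [mul_assoc, mul_assoc, h2]
  -- it is not central, so some conjugation multiplies it by `z`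
  obtain ⟨g1, u, hu, hu1, e⟩ : ∃ g1 u, u ∈ Subgroup.zpowers z ∧ u ≠ 1 ∧
      g1 * a' * g1⁻¹ = a' * u := by
    by_contra h
    push Not at h
    refine hw0 (D.central_fpf (z := a') (fun g => ?_) ?_ hw)
    · obtain ⟨u, hu, e⟩ := hconj' g
      rcases eq_or_ne u 1 with rfl | hu1
      · rw [mul_one] at e
        exact mul_inv_eq_iff_eq_mul.1 e
      · exact absurd e (h g u hu hu1)
    · intro h1
      exact haZ (by
        have : a = (z ^ i)⁻¹ := eq_inv_of_mul_eq_one_left h1
        rw [this]; exact Subgroup.inv_mem _ hzi)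
  obtain ⟨k, hk⟩ : ∃ k : ℕ, u ^ k = z := by
    have huo : orderOf u = p := orderOf_eq_prime (by
      obtain ⟨j, rfl⟩ := Subgroup.mem_zpowers_iff.1 hu
      rw [← zpow_natCast, ← zpow_mul, mul_comm, zpow_mul, zpow_natCast, hzp, one_zpow]) hu1
    have heq : Subgroup.zpowers u = Subgroup.zpowers z :=
      Subgroup.eq_of_le_of_card_ge (Subgroup.zpowers_le.2 hu)
        (by rw [Nat.card_zpowers, Nat.card_zpowers, huo, hzo])
    exact (isOfFinOrder_of_finite u).mem_powers_iff_mem_zpowers.2 (heq ▸ Subgroup.mem_zpowers z)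
  refine ⟨a', z, g1 ^ k, hzc, hz1, hzp, ?_, hconj', ?_, w, hw0, hw⟩
  · rw [ha', ((Commute.pow_right (hzc a) i : Commute a (z ^ i))).mul_pow, hap, ← pow_mul, mul_comm,
      pow_mul, hzp, one_pow, one_mul]
  · rw [← hk]
    clear hk
    induction k with
    | zero => simp
    | succ k ih =>
      have huc := Subgroup.mem_center_iff.1 (hzC (Subgroup.pow_mem _ hu k)) g1
      calc g1 ^ (k + 1) * a' * (g1 ^ (k + 1))⁻¹
          = g1 * (g1 ^ k * a' * (g1 ^ k)⁻¹) * g1⁻¹ := by rw [pow_succ']; group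
        _ = g1 * a' * g1⁻¹ * (g1 * u ^ k * g1⁻¹) := by rw [ih]; group
        _ = a' * u ^ (k + 1) := by
          rw [e, huc, mul_inv_cancel_right, mul_assoc, ← pow_succ']

end Cfsg.Agent.HalfTransP
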