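import Cfsg.Agent.HalfTransP.Frame

/-! # The frame forces p = 2 -/

set_option autoImplicit false
set_option linter.unusedSectionVars false
set_option linter.style.haveILetI false

open MulAction Finset

namespace Cfsg.Agent.HalfTransP

variable {G V : Type*} [Group G] [AddCommGroup V] [DistribMulAction G V] {p q : ℕ}
  [Finite G] [Finite V] {a z g0 : G}

namespace Frame

variable (F : Frame p G V a z g0) (D : Data p q G V)
include F D

lemma orderOf_z : orderOf z = p := by
  haveI := Fact.mk D.hp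
  exact orderOf_eq_prime F.hzp F.hz1

lemma z_central {u : G} (hu : u ∈ Subgroup.zpowers z) (g : G) : g * u = u * g := by
  obtain ⟨i, rfl⟩ := Subgroup.mem_zpowers_iff.1 hu
  exact (Commute.zpow_right (F.hzc g) i : Commute g (z ^ i)).eq

lemma pow_p {u : G} (hu : u ∈ Subgroup.zpowers z) : (a * u) ^ p = 1 := by
  rw [Commute.mul_pow (show Commute a u from F.z_central D hu a), F.hap, one_mul]
  obtain ⟨i, rfl⟩ := Subgroup.mem_zpowers_iff.1 hu
  rw [← zpow_natCast, ← zpow_mul, mul_comm, zpow_mul, zpow_natCast, F.hzp, one_zpow]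

/-- Eigenvectors for different members have trivial norm. -/
lemma nrm_eq_zero {u w : G} (hu : u ∈ Subgroup.zpowers z) (hw : w ∈ Subgroup.zpowers z)
    (hne : u ≠ w) {x : V} (hx : (a * w) • x = x) : nrm p (a * u) x = 0 := by
  have hd : w⁻¹ * u ∈ Subgroup.zpowers z := Subgroup.mul_mem _ (Subgroup.inv_mem _ hw) hu
  have hd1 : w⁻¹ * u ≠ 1 := fun h => hne (inv_mul_eq_one.1 h).symm
  have hfix : ∀ i : ℕ, (a * w) ^ i • x = x := fun i => by
    induction i with
    | zero => simp
    | succ i ih => rw [pow_succ, mul_smul, hx, ih]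
  have : nrm p (a * u) x = nrm p (w⁻¹ * u) x := by
    unfold nrm
    refine sum_congr rfl fun i _ => ?_
    have hc : Commute (w⁻¹ * u) (a * w) := ((F.z_central D hd (a * w)).symm : Commute _ _)
    have hau : a * u = (w⁻¹ * u) * (a * w) := by
      rw [hc.eq]; group
    rw [hau, hc.mul_pow, mul_smul]
    rw [hfix i]
  rw [this]
  refine D.nrm_central (F.z_central D hd) hd1 ?_ x
  obtain ⟨i, hi⟩ := Subgroup.mem_zpowers_iff.1 hd
  rw [← hi, ← zpow_natCast, ← zpow_mul, mul_comm, zpow_mul, zpow_natCast, F.hzp, one_zpow]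

/-- An element conjugating `a` to `a * c` moves eigenspaces by `c`. -/
lemma smul_eigen {g c w : G} (hc : c ∈ Subgroup.zpowers z) (hw : w ∈ Subgroup.zpowers z)
    (hg : g * a * g⁻¹ = a * c) {x : V} (hx : (a * w) • x = x) :
    (a * (c * w)) • (g • x) = g • x := by
  have h1 : a * (c * w) * g = g * (a * w) := by
    calc a * (c * w) * g = a * c * (w * g) := by group
      _ = a * c * (g * w) := by rw [F.z_central D hw g]
      _ = g * a * g⁻¹ * (g * w) := by rw [hg]
      _ = g * (a * w) := by group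
  rw [← mul_smul, h1, mul_smul, hx]

lemma exists_conj {u : G} (hu : u ∈ Subgroup.zpowers z) : ∃ g : G, g * a * g⁻¹ = a * u := by
  obtain ⟨k, rfl⟩ : ∃ k : ℕ, z ^ k = u := (isOfFinOrder_of_finite z).mem_powers_iff_mem_zpowers.2 hu
  refine ⟨g0 ^ k, ?_⟩
  clear hu
  induction k with
  | zero => simp
  | succ k ih =>
    have hzk := (Commute.pow_right (F.hzc g0) k : Commute g0 (z ^ k)).eq
    calc g0 ^ (k + 1) * a * (g0 ^ (k + 1))⁻¹
        = g0 * (g0 ^ k * a * (g0 ^ k)⁻¹) * g0⁻¹ := by rw [pow_succ']; group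
      _ = g0 * a * g0⁻¹ * (g0 * z ^ k * g0⁻¹) := by rw [ih]; group
      _ = a * z ^ (k + 1) := by
        rw [F.hg0, hzk, mul_inv_cancel_right, mul_assoc, ← pow_succ']

lemma exists_eigen {u : G} (hu : u ∈ Subgroup.zpowers z) :
    ∃ x : V, x ≠ 0 ∧ (a * u) • x = x := by
  obtain ⟨v, hv0, hv⟩ := F.hv
  obtain ⟨g, hg⟩ := F.exists_conj D hu
  refine ⟨g • v, fun h => hv0 (by simpa using congrArg (g⁻¹ • ·) h), ?_⟩
  simpa using F.smul_eigen D hu (Subgroup.one_mem _) hg (x := v) (by rw [mul_one]; exact hv)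

lemma span (v : V) : ∑ i ∈ range p, nrm p (a * z ^ i) v = p • v := by
  unfold nrm
  rw [sum_comm, sum_eq_single 0]
  · simp
  · intro j hj hj0
    have hj' : z ^ j ≠ 1 := by
      rw [Ne, ← orderOf_dvd_iff_pow_eq_one, F.orderOf_z D]
      exact fun hd => hj0 (Nat.eq_zero_of_dvd_of_lt hd (mem_range.1 hj))
    have : ∀ i, (a * z ^ i) ^ j • v = (z ^ j) ^ i • (a ^ j • v) := fun i => by
      rw [((Commute.pow_right (F.hzc a) i : Commute a (z ^ i))).mul_pow, ← mul_smul,
        ← pow_mul, ← pow_mul, mul_comm i j]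
      exact congrArg (· • v) ((Commute.pow_pow (F.hzc a) j (j * i))).eq
    simp only [this]
    exact D.nrm_central (fun g => (Commute.pow_right (F.hzc g) j : Commute g (z ^ j))) hj'
      (by rw [← pow_mul, mul_comm, pow_mul, F.hzp, one_pow]) _
  · intro h0; exact absurd (mem_range.2 D.hp.pos) h0

lemma eq_two : p = 2 := by
  by_contra hp2
  have key : ∀ {w : G} (_ : w ∈ Subgroup.zpowers z) (_ : w ≠ 1) {x y : V}, x ≠ 0 → y ≠ 0 →
      a • x = x → (a * w) • y = y → stabilizer G x = stabilizer G y := by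
    intro w hw hw1 x y hx0 hy0 hx hy
    have hx' : (a * 1) • x = x := by rw [mul_one]; exact hx
    have hN : ∀ {u : G}, u ∈ Subgroup.zpowers z → ∀ g : G, g • (x + y) = x + y →
        nrm p (a * u) (g • x) + nrm p (a * u) (g • y) = nrm p (a * u) x + nrm p (a * u) y := by
      intro u _ g hg
      rw [← nrm_add, ← nrm_add, ← smul_add, hg]
    have hne : x + y ≠ 0 := by
      intro h
      have h' := congrArg (nrm p (a * 1)) h
      rw [nrm_add, nrm_of_fixed hx', F.nrm_eq_zero D (Subgroup.one_mem _) hw (Ne.symm hw1) hy,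
        add_zero] at h'
      exact hx0 (D.p_smul_cancel (by simpa [nrm] using h'))
    have hle : ∀ g : G, g • (x + y) = x + y → g • x = x ∧ g • y = y := by
      intro g hg
      obtain ⟨c, hc, hcg⟩ := F.hconj g
      have hgx := F.smul_eigen D hc (Subgroup.one_mem _) hcg hx'
      have hgy := F.smul_eigen D hc hw hcg hy
      have hcw : c * w ∈ Subgroup.zpowers z := Subgroup.mul_mem _ hc hw
      have hc1' : c * 1 ∈ Subgroup.zpowers z := by rwa [mul_one]
      have h1 := hN (Subgroup.one_mem _) g hg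
      have h2 := hN hw g hg
      rw [nrm_of_fixed hx', F.nrm_eq_zero D (Subgroup.one_mem _) hw (Ne.symm hw1) hy, add_zero] at h1
      rw [nrm_of_fixed hy, F.nrm_eq_zero D hw (Subgroup.one_mem _) hw1 hx', zero_add] at h2
      by_cases hc1 : c = 1
      · subst hc1
        rw [one_mul] at hgy hgx
        rw [F.nrm_eq_zero D (Subgroup.one_mem _) hw (Ne.symm hw1) hgy, nrm_of_fixed hgx,
          add_zero] at h1
        have hx1 : g • x = x := sub_eq_zero.1 (D.p_smul_cancel (by rw [nsmul_sub, h1, sub_self]))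
        exact ⟨hx1, by rw [smul_add, hx1] at hg; exact add_left_cancel hg⟩
      · exfalso
        have hA : c * w = 1 := by
          by_contra hne'
          rw [F.nrm_eq_zero D (Subgroup.one_mem _) hc1' (by rw [mul_one]; exact Ne.symm hc1) hgx,
            F.nrm_eq_zero D (Subgroup.one_mem _) hcw (Ne.symm hne') hgy, add_zero] at h1
          exact hx0 (D.p_smul_cancel h1.symm)
        have hB : c = w := by
          by_contra hne'
          rw [F.nrm_eq_zero D hw hcw (fun e => hc1 (mul_eq_right.1 e.symm)) hgy,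
            F.nrm_eq_zero D hw hc1' (by rw [mul_one]; exact Ne.symm hne') hgx, add_zero] at h2
          exact hy0 (D.p_smul_cancel h2.symm)
        subst hB
        have : orderOf c ∣ 2 := orderOf_dvd_of_pow_eq_one (by rw [pow_two, hA])
        have hop : orderOf c ∣ p := orderOf_dvd_of_pow_eq_one (by
          obtain ⟨i, hi⟩ := Subgroup.mem_zpowers_iff.1 hc
          rw [← hi, ← zpow_natCast, ← zpow_mul, mul_comm, zpow_mul, zpow_natCast, F.hzp, one_zpow])
        rcases (Nat.dvd_prime D.hp).1 hop with h | h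
        · exact hc1 (orderOf_eq_one_iff.1 h)
        · rw [h] at this
          exact hp2 ((Nat.prime_dvd_prime_iff_eq D.hp Nat.prime_two).1 this)
    rw [← D.eq_of_le hne hx0 fun g hg => (hle g hg).1, D.eq_of_le hne hy0 fun g hg => (hle g hg).2]
  obtain ⟨x0, hx00, hx0⟩ := F.exists_eigen D (Subgroup.one_mem (Subgroup.zpowers z))
  rw [mul_one] at hx0
  obtain ⟨y0, hy00, hy0⟩ := F.exists_eigen D (Subgroup.mem_zpowers z)
  have hKx : ∀ x : V, a • x = x → ∀ g ∈ stabilizer G x0, g • x = x := fun x hx g hg => by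
    rcases eq_or_ne x 0 with rfl | hx'
    · exact smul_zero g
    · have e := (key (Subgroup.mem_zpowers z) F.hz1 hx00 hy00 hx0 hy0).trans
        (key (Subgroup.mem_zpowers z) F.hz1 hx' hy00 hx hy0).symm
      rw [e] at hg
      exact hg
  have hK : stabilizer G x0 = ⊥ := by
    refine (Subgroup.eq_bot_iff_forall _).2 fun g hg => D.hfaith g fun v => ?_
    refine sub_eq_zero.1 (D.p_smul_cancel ?_)
    rw [nsmul_sub, ← smul_comm g, ← F.span D v, smul_sum, sub_eq_zero]
    refine sum_congr rfl fun i _ => ?_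
    have hu : z ^ i ∈ Subgroup.zpowers z := Subgroup.pow_mem _ (Subgroup.mem_zpowers z) i
    have hfix := smul_nrm (F.pow_p D hu) v
    rcases eq_or_ne (nrm p (a * z ^ i) v) 0 with h0 | h0
    · rw [h0, smul_zero]
    rcases eq_or_ne (z ^ i) 1 with h1 | h1
    · rw [h1] at hfix h0 ⊢
      exact hKx _ (by rwa [mul_one] at hfix ⊢) g hg
    · have := key hu h1 hx00 h0 hx0 hfix
      rw [this] at hg
      exact hg
  have := D.one_lt_stab hx00
  rw [hK] at this
  simp at this

end Frame

end Cfsg.Agent.HalfTransP
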