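import Cfsg.Agent.HalfTransP.Basic

/-! # Groups with orbits of size at most two on an odd abelian group -/

set_option autoImplicit false

namespace Cfsg.Agent.HalfTransP

variable {G V : Type*} [Group G] [AddCommGroup V] [DistribMulAction G V]

/-- A group acting faithfully on an odd invariant piece with orbits of size at most two has at most one
nontrivial element, which is an involution. -/
lemma orbit_two (h2 : ∀ v : V, v + v = 0 → v = 0) (K : Subgroup G) (U : AddSubgroup V)
    (hU : ∀ g ∈ K, ∀ u ∈ U, g • u ∈ U)
    (hf : ∀ g ∈ K, (∀ u ∈ U, g • u = u) → g = 1)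
    (hK : ∀ g ∈ K, ∀ h ∈ K, ∀ u ∈ U, g • u ≠ u → h • u ≠ u → g • u = h • u)
    {t : G} (ht : t ∈ K) (ht1 : t ≠ 1) :
    (∀ u ∈ U, t • (t • u) = u) ∧ t ^ 2 = 1 ∧ ∀ t' ∈ K, t' ≠ 1 → t' = t := by
  have htt : ∀ u ∈ U, t • (t • u) = u := fun u hu => by
    by_contra h
    rw [← mul_smul] at h
    by_cases h1 : t • u = u
    · exact h (by rw [mul_smul, h1, h1])
    · have := hK t ht (t * t) (K.mul_mem ht ht) u hu h1 h
      rw [mul_smul] at this
      exact h1 (MulAction.injective t this).symm
  refine ⟨htt, hf _ (K.pow_mem ht 2) (fun u hu => by rw [pow_two, mul_smul, htt u hu]),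
    fun t' ht' ht1' => ?_⟩
  -- `t'` agrees with `t`
  have hm : ∀ u ∈ U, u - t • u ∈ U ∧ t • (u - t • u) = -(u - t • u) := fun u hu =>
    ⟨U.sub_mem hu (hU t ht u hu), by rw [smul_sub, htt u hu]; abel⟩
  obtain ⟨x0, hx0U, hx0, hx00⟩ : ∃ x ∈ U, t • x = -x ∧ x ≠ 0 := by
    by_contra h
    push Not at h
    exact ht1 (hf t ht fun u hu => (sub_eq_zero.1 (h _ (hm u hu).1 (hm u hu).2)).symm)
  have hne : ∀ x : V, x ≠ 0 → t • x = -x → t • x ≠ x := fun x hx e e' =>
    hx (h2 x (by nth_rewrite 2 [← e']; rw [e, add_neg_cancel]))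
  have hpm : ∀ x ∈ U, x ≠ 0 → t • x = -x → t' • x = x ∨ t' • x = -x := fun x hx hx' e => by
    by_cases h : t' • x = x
    · exact Or.inl h
    · exact Or.inr ((hK t' ht' t ht x hx h (hne x hx' e)).trans e)
  have hplus : ∀ y ∈ U, t • y = y → t' • y = y := by
    intro y hy hty
    by_contra hy'
    have key : ∀ x ∈ U, x ≠ 0 → t • x = -x →
        (t' • x = x → t' • y = y - (x + x)) ∧ (t' • x = -x → t' • y = y + (x + x)) := by
      intro x hx hx' e
      have hxy : t • (x + y) ≠ x + y := by
        rw [smul_add, hty]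
        exact fun h => hne x hx' e (add_right_cancel h)
      by_cases h : t' • (x + y) = x + y
      · rw [smul_add] at h
        refine ⟨fun e' => ?_, fun e' => ?_⟩
        · rw [e'] at h; exact absurd (add_left_cancel h) hy'
        · rw [e'] at h
          calc t' • y = x + (-x + t' • y) := by abel
            _ = x + (x + y) := by rw [h]
            _ = y + (x + x) := by abel
      · have h' := hK t' ht' t ht (x + y) (U.add_mem hx hy) h hxy
        rw [smul_add, smul_add, e, hty] at h'
        refine ⟨fun e' => ?_, fun e' => ?_⟩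
        · rw [e'] at h'
          calc t' • y = -x + (x + t' • y) := by abel
            _ = -x + (-x + y) := by rw [h']
            _ = y - (x + x) := by abel
        · rw [e'] at h'; exact absurd (add_left_cancel h') hy'
    have hnx : t • (-x0) = -(-x0) := by rw [smul_neg, hx0]
    have a := key x0 hx0U hx00 hx0
    have b := key (-x0) (U.neg_mem hx0U) (neg_ne_zero.2 hx00) hnx
    have h4 : y - (x0 + x0) = y + (x0 + x0) := by
      rcases hpm x0 hx0U hx00 hx0 with e | e
      · have := b.1 (by rw [smul_neg, e])
        rw [a.1 e] at this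
        rw [this]; abel
      · have := b.2 (by rw [smul_neg, e])
        rw [a.2 e] at this
        rw [this]; abel
    exact hx00 (h2 x0 (h2 _ (by
      calc x0 + x0 + (x0 + x0) = (y + (x0 + x0)) - (y - (x0 + x0)) := by abel
        _ = 0 := by rw [h4, sub_self])))
  have hminus : ∀ x ∈ U, t • x = -x → t' • x = -x := by
    intro x hx e
    by_contra h
    have hx' : x ≠ 0 := fun h0 => h (by rw [h0, smul_zero, neg_zero])
    have ex : t' • x = x := (hpm x hx hx' e).resolve_right h
    have hall : ∀ w ∈ U, t • w = -w → t' • w = w := by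
      intro w hw ew
      rcases eq_or_ne w 0 with rfl | hw'
      · exact smul_zero _
      rcases hpm w hw hw' ew with h' | h'
      · exact h'
      · exfalso
        rcases eq_or_ne (x + w) 0 with h0 | h0
        · have : w = -x := eq_neg_of_add_eq_zero_right h0
          rw [this, smul_neg, ex, neg_neg] at h'
          exact hx' (h2 x (by nth_rewrite 1 [← h']; rw [neg_add_cancel]))
        · rcases hpm (x + w) (U.add_mem hx hw) h0 (by rw [smul_add, e, ew]; abel) with h1 | h1
          · rw [smul_add, ex, h'] at h1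
            have h1' := add_left_cancel h1
            exact hw' (h2 w (by nth_rewrite 1 [← h1']; rw [neg_add_cancel]))
          · rw [smul_add, ex, h', neg_add] at h1
            have h1' := add_right_cancel h1
            exact hx' (h2 x (by nth_rewrite 2 [h1']; rw [add_neg_cancel]))
    refine ht1' (hf t' ht' fun u hu => ?_)
    have h1 := hall _ (hm u hu).1 (hm u hu).2
    have h3 := hplus (u + t • u) (U.add_mem hu (hU t ht u hu))
      (by rw [smul_add, htt u hu, add_comm])
    rw [smul_sub] at h1
    rw [smul_add] at h3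
    refine sub_eq_zero.1 (h2 _ ?_)
    calc t' • u - u + (t' • u - u)
        = (t' • u - t' • t • u - (u - t • u)) + (t' • u + t' • t • u - (u + t • u)) := by abel
      _ = 0 := by rw [h1, h3, sub_self, sub_self, add_zero]
  have hag : ∀ u ∈ U, (t⁻¹ * t') • u = u := by
    intro u hu
    rw [mul_smul, inv_smul_eq_iff]
    have h1 := hminus _ (hm u hu).1 (hm u hu).2
    have h3 := hplus (u + t • u) (U.add_mem hu (hU t ht u hu))
      (by rw [smul_add, htt u hu, add_comm])
    rw [smul_sub] at h1
    rw [smul_add] at h3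
    refine sub_eq_zero.1 (h2 _ ?_)
    calc t' • u - t • u + (t' • u - t • u)
        = (t' • u - t' • t • u - -(u - t • u)) + (t' • u + t' • t • u - (u + t • u)) := by abel
      _ = 0 := by rw [h1, h3, sub_self, sub_self, add_zero]
  exact (inv_mul_eq_one.1 (hf _ (K.mul_mem (K.inv_mem ht) ht') hag)).symm

end Cfsg.Agent.HalfTransP
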