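import Cfsg.Agent.HalfTransP.Odd

/-! # Two blocks: stabilisers have order two -/

set_option autoImplicit false
set_option linter.unusedSectionVars false
set_option linter.style.haveILetI false

open MulAction Finset

namespace Cfsg.Agent.HalfTransP

variable {G V : Type*} [Group G] [AddCommGroup V] [DistribMulAction G V] {q : ℕ}
  [Finite G] [Finite V] {a z g0 : G}

namespace Frame

variable (F : Frame 2 G V a z g0) (D : Data 2 q G V)
include F D

lemma z_neg (x : V) : z • x = -x := D.central_neg F.hzc F.hz1 F.hzp x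

lemma two_cancel {v : V} (h : v + v = 0) : v = 0 := D.p_smul_cancel (by rwa [two_nsmul])

lemma eq_neg_self {v : V} (h : v = -v) : v = 0 :=
  F.two_cancel D (by nth_rewrite 2 [h]; rw [add_neg_cancel])

lemma conj_cases (g : G) : g * a = a * g ∨ g * a * g⁻¹ = a * z := by
  obtain ⟨u, hu, e⟩ := F.hconj g
  obtain ⟨k, rfl⟩ := Subgroup.mem_zpowers_iff.1 hu
  have hz2 : z ^ (2 : ℤ) = 1 := by rw [show (2 : ℤ) = ((2 : ℕ) : ℤ) from rfl, zpow_natCast, F.hzp]
  rcases Int.even_or_odd k with ⟨j, rfl⟩ | ⟨j, rfl⟩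
  · refine Or.inl ?_
    rw [← two_mul, zpow_mul, hz2, one_zpow, mul_one] at e
    exact mul_inv_eq_iff_eq_mul.1 e
  · refine Or.inr ?_
    rw [zpow_add, zpow_mul, hz2, one_zpow, one_mul, zpow_one] at e
    exact e

lemma a_swap {g : G} (hg : ¬ g * a = a * g) (x : V) : a • (g • x) = -(g • (a • x)) := by
  have h := (F.conj_cases D g).resolve_left hg
  have hzz : z * z = 1 := by rw [← pow_two, F.hzp]
  have : a * g = g * (a * z) := by
    have h1 : g * a = a * z * g := mul_inv_eq_iff_eq_mul.1 h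
    calc a * g = a * (z * z) * g := by rw [hzz, mul_one]
      _ = a * z * (z * g) := by group
      _ = a * z * (g * z) := by rw [F.hzc g]
      _ = a * z * g * z := by group
      _ = g * (a * z) := by rw [← h1, mul_assoc]
  rw [← mul_smul, this, mul_smul, mul_smul, F.z_neg D x, smul_neg, smul_neg]

lemma a_comm {g : G} (hg : g * a = a * g) (x : V) : a • (g • x) = g • (a • x) := by
  rw [← mul_smul, ← hg, mul_smul]

lemma g0_not : ¬ g0 * a = a * g0 := fun h => by
  have := F.hg0
  rw [h, mul_inv_cancel_right] at this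
  exact F.hz1 (mul_eq_left.1 this.symm)

lemma mem_H_mul {g h : G} (hg : g * a = a * g) (hh : h * a = a * h) : (g * h) * a = a * (g * h) :=
  ((show Commute g a from hg).mul_left hh).eq

lemma not_H_mul {g h : G} (hg : ¬ g * a = a * g) (hh : ¬ h * a = a * h) :
    (g * h) * a = a * (g * h) := by
  have e1 := (F.conj_cases D g).resolve_left hg
  have e2 := (F.conj_cases D h).resolve_left hh
  have hzz : z * z = 1 := by rw [← pow_two, F.hzp]
  have : g * h * a * (g * h)⁻¹ = a := by
    calc g * h * a * (g * h)⁻¹ = g * (h * a * h⁻¹) * g⁻¹ := by group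
      _ = g * a * g⁻¹ * (g * z * g⁻¹) := by rw [e2]; group
      _ = a := by rw [e1, F.hzc g, mul_inv_cancel_right, mul_assoc, hzz, mul_one]
  exact mul_inv_eq_iff_eq_mul.1 this

lemma inv_H {g : G} (hg : g * a = a * g) : g⁻¹ * a = a * g⁻¹ :=
  ((show Commute g a from hg).inv_left).eq

lemma inv_not_H {g : G} (hg : ¬ g * a = a * g) : ¬ g⁻¹ * a = a * g⁻¹ := fun h =>
  hg (by simpa using ((show Commute g⁻¹ a from h).inv_left).eq)

/-- The centraliser of `a`. -/
def H (_ : Frame 2 G V a z g0) : Subgroup G := Subgroup.centralizer ({a} : Set G)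

lemma mem_H {g : G} : g ∈ F.H ↔ g * a = a * g := Subgroup.mem_centralizer_singleton_iff

lemma H_index : F.H.index = 2 := by
  refine Subgroup.index_eq_two_iff.2 ⟨g0, fun b => ?_⟩
  by_cases hb : b * a = a * b
  · refine Or.inr ⟨(F.mem_H D).2 hb, fun h => F.g0_not D ?_⟩
    have := F.mem_H_mul D (F.inv_H D hb) ((F.mem_H D).1 h)
    rwa [inv_mul_cancel_left] at this
  · exact Or.inl ⟨(F.mem_H D).2 (F.not_H_mul D hb (F.g0_not D)), fun h => hb ((F.mem_H D).1 h)⟩

lemma plus_or_minus_H {x : V} (hx : x ≠ 0) (hax : a • x = x ∨ a • x = -x) {g : G}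
    (hg : g • x = x) : g * a = a * g := by
  by_contra h
  have e := F.a_swap D h x
  rw [hg] at e
  rcases hax with h' | h'
  · rw [h', hg] at e
    exact hx (F.eq_neg_self D e)
  · rw [h', smul_neg, hg, neg_neg] at e
    exact hx (F.eq_neg_self D e.symm)

/-- Components of a fixed vector. -/
lemma split {x y : V} (hx : a • x = x) (hy : a • y = -y) {g : G} (hg : g • (x + y) = x + y) :
    (g * a = a * g ∧ g • x = x ∧ g • y = y) ∨ (¬ g * a = a * g ∧ g • x = y ∧ g • y = x) := by
  have hg' : g • x + g • y = x + y := by rw [← smul_add, hg]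
  have h2 := congrArg (a • ·) hg'
  simp only [smul_add] at h2
  by_cases h : g * a = a * g
  · left
    rw [F.a_comm D h, F.a_comm D h, hx, hy, smul_neg] at h2
    have : g • x = x := by
      refine sub_eq_zero.1 (F.two_cancel D ?_)
      have := congrArg₂ (· + ·) hg' h2
      rw [← sub_eq_zero] at this
      rw [← this]; abel
    exact ⟨h, this, by rw [this] at hg'; exact add_left_cancel hg'⟩
  · right
    rw [F.a_swap D h, F.a_swap D h, hx, hy, smul_neg, neg_neg] at h2
    have : g • x = y := by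
      refine sub_eq_zero.1 (F.two_cancel D ?_)
      have := congrArg₂ (· - ·) hg' h2
      rw [← sub_eq_zero] at this
      rw [← this]; abel
    refine ⟨h, this, ?_⟩
    rw [this, add_comm x y] at hg'
    exact add_left_cancel hg'

lemma sum_ne_zero {x y : V} (hx : a • x = x) (hx0 : x ≠ 0) (hy : a • y = -y) : x + y ≠ 0 := by
  intro h
  have hxy : x = -y := eq_neg_of_add_eq_zero_left h
  have : a • x = y := by rw [hxy, smul_neg, hy, neg_neg]
  rw [hx] at this
  exact hx0 (F.two_cancel D (by nth_rewrite 2 [this]; exact h))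

/-- A subgroup of the order of a stabiliser containing `stab x ⊓ stab y` moves `y` to at most one
other place. -/
lemma half {x y : V} (hx : a • x = x) (hx0 : x ≠ 0) (hy : a • y = -y) (hy0 : y ≠ 0)
    {u w : V} (hu : (u = x ∧ w = y) ∨ (u = y ∧ w = x)) {g h : G} (hg : g • u = u) (hh : h • u = u)
    (hgw : g • w ≠ w) (hhw : h • w ≠ w) : g • w = h • w := by
  set L := stabilizer G (x + y) with hL
  set K := stabilizer G u with hK
  set M := stabilizer G x ⊓ stabilizer G y with hM
  have hMK : M ≤ K := by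
    rcases hu with ⟨rfl, -⟩ | ⟨rfl, -⟩
    · exact inf_le_left
    · exact inf_le_right
  have hKw : ∀ k ∈ K, k ∈ M ↔ k • w = w := fun k hk => by
    rcases hu with ⟨rfl, rfl⟩ | ⟨rfl, rfl⟩
    · exact ⟨fun h => h.2, fun h => ⟨hk, h⟩⟩
    · exact ⟨fun h => h.1, fun h => ⟨h, hk⟩⟩
  have hu0 : u ≠ 0 := by rcases hu with ⟨rfl, -⟩ | ⟨rfl, -⟩ <;> assumption
  have hKL : Nat.card K = Nat.card L := D.hk _ _ hu0 (F.sum_ne_zero D hx hx0 hy)
  have hML : M = F.H ⊓ L := by
    ext k
    simp only [hM, hL, Subgroup.mem_inf, mem_stabilizer_iff]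
    constructor
    · rintro ⟨h1, h2⟩
      exact ⟨(F.mem_H D).2 (F.plus_or_minus_H D hx0 (Or.inl hx) h1), by rw [smul_add, h1, h2]⟩
    · rintro ⟨h1, h2⟩
      rcases F.split D hx hy h2 with ⟨-, h3, h4⟩ | ⟨h3, -, -⟩
      · exact ⟨h3, h4⟩
      · exact absurd ((F.mem_H D).1 h1) h3
  have hrelL : M.relIndex L ∣ 2 := by
    rw [hML, Subgroup.inf_relIndex_right, ← F.H_index D]
    haveI := Subgroup.normal_of_index_eq_two (F.H_index D)
    exact Subgroup.relIndex_dvd_index_of_normal _ _
  have hrel : M.relIndex K ∣ 2 := by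
    have h1 := Subgroup.relIndex_mul_relIndex ⊥ M K bot_le hMK
    have h2 := Subgroup.relIndex_mul_relIndex ⊥ M L bot_le (hML ▸ inf_le_right)
    simp only [Subgroup.relIndex_bot_left] at h1 h2
    rwa [Nat.eq_of_mul_eq_mul_left Nat.card_pos (h1.trans (hKL.trans h2.symm))]
  rcases (Nat.dvd_prime Nat.prime_two).1 hrel with h1 | h2
  · exact absurd ((hKw g hg).1 (Subgroup.relIndex_eq_one.1 h1 hg)) hgw
  · have hmem : h⁻¹ * g ∈ M := by
      have := (Subgroup.mul_mem_iff_of_index_two (H := M.subgroupOf K)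
        (a := (⟨h, hh⟩ : K)⁻¹) (b := ⟨g, hg⟩) h2).2
      refine Subgroup.mem_subgroupOf.1 (this ?_)
      rw [inv_mem_iff, Subgroup.mem_subgroupOf, Subgroup.mem_subgroupOf, hKw h hh, hKw g hg]
      exact iff_of_false hhw hgw
    have h3 := (hKw _ (K.mul_mem (K.inv_mem hh) hg)).1 hmem
    rw [mul_smul] at h3
    exact inv_smul_eq_iff.1 h3

end Frame

end Cfsg.Agent.HalfTransP
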