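import Cfsg.Agent.HalfTransP.Swap
import Cfsg.Agent.HalfTransP.Orbit2

/-! # Two blocks: transitivity -/

set_option autoImplicit false
set_option linter.unusedSectionVars false
set_option linter.style.haveILetI false

open MulAction Finset

namespace Cfsg.Agent.HalfTransP

variable {G V : Type*} [Group G] [AddCommGroup V] [DistribMulAction G V] {q : ℕ}
  [Finite G] [Finite V] {a z g0 : G}

/-- Fixed vectors of `a`. -/
def fixA (a : G) : AddSubgroup V where
  carrier := {x | a • x = x}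
  zero_mem' := smul_zero a
  add_mem' := fun {x y} hx hy => by
    simp only [Set.mem_ofPred_eq] at *; rw [smul_add, hx, hy]
  neg_mem' := fun {x} hx => by
    simp only [Set.mem_ofPred_eq] at *; rw [smul_neg, hx]

/-- Negated vectors of `a`. -/
def negA (a : G) : AddSubgroup V where
  carrier := {x | a • x = -x}
  zero_mem' := by simp
  add_mem' := fun {x y} hx hy => by
    simp only [Set.mem_ofPred_eq] at *; rw [smul_add, hx, hy, neg_add]
  neg_mem' := fun {x} hx => by
    simp only [Set.mem_ofPred_eq] at *; rw [smul_neg, hx]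

lemma mem_fixA {x : V} : x ∈ fixA (V := V) a ↔ a • x = x := Iff.rfl
lemma mem_negA {x : V} : x ∈ negA (V := V) a ↔ a • x = -x := Iff.rfl

namespace Frame

variable (F : Frame 2 G V a z g0) (D : Data 2 q G V)
include F D

lemma exists_minus : ∃ y : V, y ≠ 0 ∧ a • y = -y := by
  obtain ⟨y, hy0, hy⟩ := F.exists_eigen D (Subgroup.mem_zpowers z)
  refine ⟨y, hy0, ?_⟩
  rw [mul_smul, F.z_neg D, smul_neg] at hy
  exact neg_eq_iff_eq_neg.1 hy

lemma g0_plus {x : V} (hx : a • x = x) : a • (g0 • x) = -(g0 • x) := by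
  rw [F.a_swap D (F.g0_not D), hx]

lemma g0_minus {y : V} (hy : a • y = -y) : a • (g0 • y) = g0 • y := by
  rw [F.a_swap D (F.g0_not D), hy, smul_neg, neg_neg]

lemma g0inv_plus {x : V} (hx : a • x = x) : a • (g0⁻¹ • x) = -(g0⁻¹ • x) := by
  rw [F.a_swap D (F.inv_not_H D (F.g0_not D)), hx]

lemma g0inv_minus {y : V} (hy : a • y = -y) : a • (g0⁻¹ • y) = g0⁻¹ • y := by
  rw [F.a_swap D (F.inv_not_H D (F.g0_not D)), hy, smul_neg, neg_neg]

lemma decomp (v : V) : ∃ x y : V, a • x = x ∧ a • y = -y ∧ v + v = x + y := by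
  have haa : a • (a • v) = v := by rw [← mul_smul, ← pow_two, F.hap, one_smul]
  exact ⟨v + a • v, v - a • v, by rw [smul_add, haa, add_comm],
    by rw [smul_sub, haa, neg_sub], by abel⟩

lemma eq_one_of_fix_both {g : G} (h1 : ∀ x : V, a • x = x → g • x = x)
    (h2 : ∀ y : V, a • y = -y → g • y = y) : g = 1 :=
  D.hfaith g fun v => by
    obtain ⟨x, y, hx, hy, e⟩ := F.decomp D v
    refine sub_eq_zero.1 (F.two_cancel D ?_)
    have : g • v + g • v = v + v := by rw [← smul_add, e, smul_add, h1 x hx, h2 y hy]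
    calc g • v - v + (g • v - v) = g • v + g • v - (v + v) := by abel
      _ = 0 := by rw [this, sub_self]

/-- An element commuting with `H` times its conjugate is central. -/
lemma central_of_commH {t : G} (ht : t * a = a * t)
    (hc : ∀ h : G, h * a = a * h → h * t = t * h) :
    ∀ g : G, g * (t * (g0 * t * g0⁻¹)) = t * (g0 * t * g0⁻¹) * g := by
  set t' := g0 * t * g0⁻¹ with ht'
  clear_value t'
  have hg0' := F.inv_not_H D (F.g0_not D)
  have ht'H : t' * a = a * t' := by
    rw [ht']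
    exact F.not_H_mul D (g := g0 * t) (h := g0⁻¹) (fun e => F.g0_not D (by
      have := F.mem_H_mul D e (F.inv_H D ht)
      rwa [mul_inv_cancel_right] at this)) hg0'
  have hc' : ∀ h : G, h * a = a * h → h * t' = t' * h := fun h hh => by
    have hH : (g0⁻¹ * h * g0) * a = a * (g0⁻¹ * h * g0) :=
      F.not_H_mul D (g := g0⁻¹ * h) (fun e => hg0' (by
        have := F.mem_H_mul D e (F.inv_H D hh)
        rwa [mul_inv_cancel_right] at this)) (F.g0_not D)
    calc h * t' = g0 * ((g0⁻¹ * h * g0) * t) * g0⁻¹ := by rw [ht']; group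
      _ = g0 * (t * (g0⁻¹ * h * g0)) * g0⁻¹ := by rw [hc _ hH]
      _ = t' * h := by rw [ht']; group
  have hH : ∀ h : G, h * a = a * h → h * (t * t') = t * t' * h := fun h hh => by
    rw [← mul_assoc, hc h hh, mul_assoc, hc' h hh, mul_assoc]
  have hg : g0 * (t * t') = t * t' * g0 := by
    have h1 : g0 * g0 * t = t * (g0 * g0) := hc _ (F.not_H_mul D (F.g0_not D) (F.g0_not D))
    calc g0 * (t * t') = g0 * t * g0⁻¹ * (g0 * g0 * t) * g0⁻¹ := by rw [ht']; group
      _ = t' * t * g0 := by rw [h1, ht']; group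
      _ = t * t' * g0 := by rw [hc' t ht]
  intro g
  by_cases h : g * a = a * g
  · exact hH g h
  · have hh := hH (g0⁻¹ * g) (F.not_H_mul D hg0' h)
    calc g * (t * t') = g0 * (g0⁻¹ * g * (t * t')) := by group
      _ = g0 * (t * t') * (g0⁻¹ * g) := by rw [hh]; group
      _ = t * t' * g := by rw [hg]; group

/-- An element fixing all the `-1` vectors negates all the `+1` vectors. -/
lemma trivial_minus {t : G} (ht1 : t ≠ 1) (ht : ∀ y : V, a • y = -y → t • y = y) :
    t * a = a * t ∧ (∀ x : V, a • x = x → t • x = -x) := by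
  obtain ⟨y0, hy00, hy0⟩ := F.exists_minus D
  let K2 : Subgroup G :=
    { carrier := {g | ∀ y : V, a • y = -y → g • y = y}
      one_mem' := fun y _ => one_smul G y
      mul_mem' := fun {g h} hg hh y hy => by rw [mul_smul, hh y hy, hg y hy]
      inv_mem' := fun {g} hg y hy => inv_smul_eq_iff.2 (hg y hy).symm }
  have hH : ∀ g ∈ K2, g * a = a * g := fun g hg =>
    F.plus_or_minus_H D hy00 (Or.inr hy0) (hg y0 hy0)
  have hkey := orbit_two (fun v => F.two_cancel D) K2 (fixA a)
    (fun g hg x hx => by rw [mem_fixA] at hx ⊢; rw [F.a_comm D (hH g hg), hx])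
    (fun g hg h => F.eq_one_of_fix_both D h hg)
    (fun g hg h hh x hx hgx hhx => F.half D hx (fun e => hgx (by rw [e, smul_zero])) hy0 hy00
      (Or.inr ⟨rfl, rfl⟩) (hg y0 hy0) (hh y0 hy0) hgx hhx)
    (t := t) ht ht1
  refine ⟨hH t ht, fun x hx => ?_⟩
  have hc : ∀ h : G, h * a = a * h → h * t = t * h := fun h hh => by
    have hm : h * t * h⁻¹ ∈ K2 := fun y hy => by
      rw [mul_smul, mul_smul, ht _ (by rw [F.a_comm D (F.inv_H D hh), hy, smul_neg]),
        smul_inv_smul]
    exact mul_inv_eq_iff_eq_mul.1 (hkey.2.2 _ hm fun e => ht1 (conj_eq_one_iff.1 e))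
  have hz := F.central_of_commH D (hH t ht) hc
  set t' := g0 * t * g0⁻¹ with ht'
  have hplus : ∀ x : V, a • x = x → (t * t') • x = t • x := fun x hx => by
    rw [mul_smul, ht', mul_smul, mul_smul, ht _ (F.g0inv_plus D hx), smul_inv_smul]
  refine eq_neg_of_add_eq_zero_left ?_
  by_contra hne
  have hxU : a • (t • x + x) = t • x + x := by rw [smul_add, F.a_comm D (hH t ht), hx]
  have h2 : t • (t • x + x) = t • x + x := by rw [smul_add, hkey.1 x hx, add_comm]
  by_cases hz1 : t * t' = 1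
  · refine ht1 (F.eq_one_of_fix_both D (fun w hw => ?_) ht)
    rw [← hplus w hw, hz1, one_smul]
  · exact hne (D.central_fpf hz hz1 ((hplus _ hxU).trans h2))

/-- The unique nontrivial element fixing a `+1` vector. -/
lemma stab_pair {x : V} (hx : a • x = x) (hx0 : x ≠ 0) {t : G} (ht : t • x = x) (ht1 : t ≠ 1) :
    t ^ 2 = 1 ∧ ∀ t' : G, t' • x = x → t' ≠ 1 → t' = t := by
  have hH : ∀ g ∈ stabilizer G x, g * a = a * g := fun g hg =>
    F.plus_or_minus_H D hx0 (Or.inl hx) hg
  have hkey := orbit_two (fun v => F.two_cancel D) (stabilizer G x) (negA a)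
    (fun g hg y hy => by rw [mem_negA] at hy ⊢; rw [F.a_comm D (hH g hg), hy, smul_neg])
    (fun g hg h => by
      by_contra hg1
      have := (F.trivial_minus D hg1 h).2 x hx
      rw [show g • x = x from hg] at this
      exact hx0 (F.eq_neg_self D this))
    (fun g hg h hh y hy hgy hhy => F.half D hx hx0 hy (fun e => hgy (by rw [e, smul_zero]))
      (Or.inl ⟨rfl, rfl⟩) hg hh hgy hhy)
    (t := t) ht ht1
  exact ⟨hkey.2.1, hkey.2.2⟩

lemma card_stab {v : V} (hv : v ≠ 0) : Nat.card (stabilizer G v) = 2 := by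
  obtain ⟨x, hx0, hx⟩ := F.hv
  rw [D.hk v x hv hx0]
  have h1 := D.one_lt_stab hx0
  obtain ⟨⟨t, ht⟩, ht1⟩ := (Subgroup.ne_bot_iff_exists_ne_one).1
    ((Subgroup.one_lt_card_iff_ne_bot _).1 h1)
  have ht1' : t ≠ 1 := fun h => ht1 (Subtype.ext h)
  have hu := (F.stab_pair D hx hx0 ht ht1').2
  rw [Nat.card_eq_two_iff]
  refine ⟨1, ⟨t, ht⟩, fun h => ht1 h.symm, ?_⟩
  ext ⟨g, hg⟩
  simp only [Set.mem_insert_iff, Set.mem_singleton_iff, Set.mem_univ, iff_true, Subtype.ext_iff]
  rcases eq_or_ne g 1 with h | h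
  · exact Or.inl h
  · exact Or.inr (hu g hg h)

/-- If the pair is moved then it is swapped. -/
lemma swap {x y : V} (hx : a • x = x) (hx0 : x ≠ 0) (hy : a • y = -y) (hy0 : y ≠ 0)
    {t : G} (ht : t • x = x) (ht1 : t ≠ 1) (hty : t • y ≠ y) :
    ∃ g : G, g • x = y ∧ g • y = x := by
  have hne := F.sum_ne_zero D hx hx0 hy
  obtain ⟨⟨s, hs⟩, hs1⟩ := (Subgroup.ne_bot_iff_exists_ne_one).1
    ((Subgroup.one_lt_card_iff_ne_bot _).1 (D.one_lt_stab hne))
  rcases F.split D hx hy hs with ⟨-, h1, h2⟩ | ⟨-, h1, h2⟩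
  · exact absurd ((F.stab_pair D hx hx0 ht ht1).2 s h1 (fun h => hs1 (Subtype.ext h)) ▸ h2) hty
  · exact ⟨s, h1, h2⟩

/-- Every nontrivial stabiliser element moves some vector of the other block. -/
lemma exists_moved {x : V} (hx : a • x = x) (hx0 : x ≠ 0) {t : G} (ht : t • x = x) (ht1 : t ≠ 1) :
    ∃ y : V, a • y = -y ∧ t • y ≠ y := by
  by_contra h
  push Not at h
  have := (F.trivial_minus D ht1 h).2 x hx
  rw [ht] at this
  exact hx0 (F.eq_neg_self D this)

end Frame

end Cfsg.Agent.HalfTransP
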